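import Cfsg.Agent.SylowRigid.Apt
import Cfsg.Agent.SLn.Basic

/-!
The apartment data of the special linear group.
-/

set_option autoImplicit false

namespace CfsgLib.SylowRigid.SL

open Matrix Matrix.SpecialLinearGroup CfsgLib.StChar
open scoped commutatorElement

variable {F : Type*} [Field F] {k : ℕ}

local notation "ι" => Fin (k + 1)
local notation "SLG" => Matrix.SpecialLinearGroup (Fin (k + 1)) F

/-- the layout -/
def lay (k : ℕ) (F : Type*) [Field F] :
    Layout (Matrix.SpecialLinearGroup (Fin (k + 1)) F) F (Fin (k + 1)) (Fin (k + 1)) where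
  mat :=
    { toFun := fun g => g.1
      map_one' := rfl
      map_mul' := fun _ _ => rfl }
  inj := Subtype.val_injective
  pos := id
  surj := Function.surjective_id

theorem mat_apply (g : SLG) : (lay k F).mat g = g.1 := rfl

/-- column action -/
theorem entry_eq (g : SLG) (a b : ι) : g.1 a b = (g • (Pi.single b 1 : ι → F)) a := by
  rw [Matrix.SpecialLinearGroup.smul_def, smul_eq_mulVec, mulVec_single_one, col_apply]

theorem hne (i : Fin k) : i.castSucc ≠ i.succ := (Fin.castSucc_lt_succ (i := i)).ne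

/-- the root element -/
def xS (i : Fin k) (t : F) : SLG := transvection (hne i) t

/-- the Weyl element -/
def sS (i : Fin k) : SLG :=
  transvection (hne i) 1 * transvection (hne i).symm (-1) * transvection (hne i) 1

theorem xS_smul (i : Fin k) (t : F) (v : ι → F) (a : ι) :
    (xS i t • v) a = v a + if a = i.castSucc then t * v i.succ else 0 :=
  CfsgLib.SLn.transvection_smul_apply _ _ _ _

theorem sS_smul (i : Fin k) (v : ι → F) (a : ι) :
    ((sS i : SLG) • v) a = if a = i.castSucc then v i.succ else if a = i.succ then -v i.castSucc else v a := by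
  simp only [sS, mul_smul, CfsgLib.SLn.transvection_smul_apply]
  by_cases h1 : a = i.castSucc
  · subst h1; simp [hne i, (hne i).symm]
  by_cases h2 : a = i.succ
  · subst h2; simp [hne i, (hne i).symm]
  · simp [h1, h2]

theorem xS_mul (i : Fin k) (s t : F) : xS i s * xS i t = (xS i (s + t) : SLG) := by
  refine CfsgLib.SLn.ext_smul fun v => funext fun a => ?_
  simp only [mul_smul, xS_smul]
  by_cases h1 : a = i.castSucc
  · subst h1; simp [(hne i).symm]; ring
  · simp [h1]

theorem xS_zero (i : Fin k) : xS i (0 : F) = (1 : SLG) := transvection_coeff_zero _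

theorem sS_mono (i : Fin k) : (lay k F).Mono (Equiv.swap i.castSucc i.succ) (sS i : SLG) := by
  intro a b hab
  change (sS i : SLG).1 a b ≠ 0 at hab
  show a = Equiv.swap i.castSucc i.succ b
  rw [entry_eq, sS_smul] at hab
  by_cases h1 : a = i.castSucc
  · rw [if_pos h1] at hab
    by_cases hb : i.succ = b
    · rw [h1, ← hb, Equiv.swap_apply_right]
    · exact absurd (Pi.single_eq_of_ne hb _) hab
  rw [if_neg h1] at hab
  by_cases h2 : a = i.succ
  · rw [if_pos h2, neg_ne_zero] at hab
    by_cases hb : i.castSucc = b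
    · rw [h2, ← hb, Equiv.swap_apply_left]
    · exact absurd (Pi.single_eq_of_ne hb _) hab
  rw [if_neg h2] at hab
  by_cases hb : a = b
  · subst hb; rw [Equiv.swap_apply_of_ne_of_ne h1 h2]
  · exact absurd (Pi.single_eq_of_ne hb _) hab

theorem supp_iff (R : ι → ι → Prop) (g : SLG) :
    (lay k F).Supp R g ↔ ∀ a b, ¬ R a b → g.1 a b = if a = b then 1 else 0 := by
  constructor
  · intro h a b hR
    by_contra hc
    refine hR (h a b ?_)
    rw [mat_apply, Matrix.sub_apply, Matrix.one_apply, sub_ne_zero]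
    exact hc
  · intro h a b hab
    by_contra hR
    exact hab (by rw [mat_apply, Matrix.sub_apply, Matrix.one_apply]; exact sub_eq_zero.2 (h a b hR))

theorem xS_supp (i : Fin k) (t : F) :
    (lay k F).Supp (fun p q => p = i.castSucc ∧ q = i.succ) (xS i t : SLG) := by
  rw [supp_iff]
  intro a b h
  rw [entry_eq, xS_smul, Pi.single_apply, Pi.single_apply]
  have := hne i
  split_ifs <;> simp_all

/-- the Weyl representatives -/
def SS (k : ℕ) (F : Type*) [Field F] : Set (Matrix.SpecialLinearGroup (Fin (k + 1)) F) :=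
  Set.range (sS (F := F) (k := k))

open Classical in
/-- the permutation of a monomial element -/
noncomputable def sigmaOf (g : SLG) : Equiv.Perm ι :=
  if h : ∃ π, (lay k F).Mono π g then h.choose else 1

theorem sigmaOf_sS (i : Fin k) : sigmaOf (sS i : SLG) = Equiv.swap i.castSucc i.succ := by
  have h : ∃ π, (lay k F).Mono π (sS i : SLG) := ⟨_, sS_mono i⟩
  rw [sigmaOf, dif_pos h]
  exact h.choose_spec.unique (sS_mono i)

/-- the inversions of an adjacent transposition -/
theorem inv_iff (i : Fin k) (p q : ι) :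
    (p < q ∧ Equiv.swap i.castSucc i.succ q < Equiv.swap i.castSucc i.succ p) ↔
      p = i.castSucc ∧ q = i.succ := by
  constructor
  · rintro ⟨h1, h2⟩
    simp only [Equiv.swap_apply_def] at h2
    split_ifs at h2 <;>
      simp only [Fin.ext_iff, Fin.lt_def, Fin.val_succ, Fin.val_castSucc] at * <;> omega
  · rintro ⟨rfl, rfl⟩
    refine ⟨Fin.castSucc_lt_succ, ?_⟩
    rw [Equiv.swap_apply_left, Equiv.swap_apply_right]
    exact Fin.castSucc_lt_succ

theorem out_iff (i : Fin k) (p q : ι) (hpq : p < q) (h : ¬ (p = i.castSucc ∧ q = i.succ)) :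
    Equiv.swap i.castSucc i.succ p < Equiv.swap i.castSucc i.succ q :=
  lt_of_le_of_ne (le_of_not_gt fun h' => h ((inv_iff i p q).1 ⟨hpq, h'⟩))
    fun e => hpq.ne (Equiv.injective _ e)

theorem rootsOf_sS (i : Fin k) :
    (fun p q => p < q ∧ sigmaOf (sS i : SLG) q < sigmaOf (sS i : SLG) p) =
      fun p q => p = i.castSucc ∧ q = i.succ := by
  funext p q
  rw [sigmaOf_sS]
  exact propext (inv_iff i p q)

theorem eq_xS (i : Fin k) {g : SLG}
    (hg : (lay k F).Supp (fun p q => p = i.castSucc ∧ q = i.succ) g) :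
    g = xS i (g.1 i.castSucc i.succ) := by
  refine Subtype.ext (Matrix.ext fun a b => ?_)
  by_cases h : a = i.castSucc ∧ b = i.succ
  · obtain ⟨rfl, rfl⟩ := h
    rw [entry_eq (xS i _), xS_smul]
    simp [hne i]
  · rw [(supp_iff _ _).1 hg a b h, (supp_iff _ _).1 (xS_supp i _) a b h]

theorem rank (i : Fin k) {t : F} (ht : t ≠ 0) :
    sS i * xS i t * sS i =
      xS i (-t⁻¹) * sS i * diag2n (hne i) (-t) (neg_ne_zero.2 ht) * (xS i (-t⁻¹) : SLG) := by
  refine CfsgLib.SLn.ext_smul fun v => funext fun a => ?_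
  simp only [mul_smul, xS_smul, sS_smul, CfsgLib.SLn.diag2n_smul_apply]
  by_cases h1 : a = i.castSucc
  · subst h1
    simp [hne i, (hne i).symm]
    field_simp
    ring
  by_cases h2 : a = i.succ
  · subst h2
    simp [hne i, (hne i).symm]
    field_simp
  · simp [h1, h2]

theorem diag_mono {i j : ι} (hij : i ≠ j) (a : F) (ha : a ≠ 0) :
    (lay k F).Mono 1 (diag2n hij a ha : SLG) := by
  intro b c hbc
  show b = c
  by_contra hne'
  change (diag2n hij a ha : SLG).1 b c ≠ 0 at hbc
  rw [diag2n_coe, Matrix.diagonal_apply_ne _ hne'] at hbc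
  exact hbc rfl

theorem exists_mono (π : Equiv.Perm ι) : ∃ g : SLG, (lay k F).Mono π g := by
  set c : ι → F := fun j => if j = 0 then ((Equiv.Perm.sign π : ℤ) : F) else 1 with hc
  set M : Matrix ι ι F := (Matrix.diagonal c).submatrix π.symm id with hM
  refine ⟨⟨M, ?_⟩, fun a b hab => ?_⟩
  · rw [hM, Matrix.det_permute, Matrix.det_diagonal, hc, Finset.prod_ite_eq' Finset.univ (0 : ι),
      if_pos (Finset.mem_univ _), Equiv.Perm.sign_symm, ← Int.cast_mul, ← Units.val_mul,
      Int.units_mul_self, Units.val_one, Int.cast_one]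
  · change M a b ≠ 0 at hab
    rw [hM, Matrix.submatrix_apply, id_eq] at hab
    have : π.symm a = b := by
      by_contra hne'
      exact hab (Matrix.diagonal_apply_ne _ hne')
    show a = π b
    rw [← this, Equiv.apply_symm_apply]

theorem gen_eq_top (hk : 1 ≤ k) :
    Subgroup.closure ({g | (lay k F).Supp (· < ·) g} ∪ SS k F ∪ {g | (lay k F).Mono 1 g}) = ⊤ := by
  haveI : Nontrivial ι := Fin.nontrivial_iff_two_le.2 (by omega)
  set K := Subgroup.closure ({g | (lay k F).Supp (· < ·) g} ∪ SS k F ∪ {g | (lay k F).Mono 1 g})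
  have hup : ∀ (i j : ι) (hij : i < j) (c : F), (transvection hij.ne c : SLG) ∈ K := by
    intro i j hij c
    refine Subgroup.subset_closure (Or.inl (Or.inl ((supp_iff _ _).2 fun a b h => ?_)))
    rw [entry_eq, CfsgLib.SLn.transvection_smul_apply, Pi.single_apply, Pi.single_apply]
    split_ifs <;> simp_all
  have hs : ∀ i : Fin k, (sS i : SLG) ∈ K := fun i =>
    Subgroup.subset_closure (Or.inl (Or.inr ⟨i, rfl⟩))
  have hdown1 : ∀ (i : Fin k) (c : F), (transvection (hne i).symm c : SLG) ∈ K := by
    intro i c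
    have e : (transvection (hne i).symm c : SLG) = sS i * xS i (-c) * (sS i)⁻¹ := by
      rw [eq_mul_inv_iff_mul_eq]
      refine CfsgLib.SLn.ext_smul fun v => funext fun a => ?_
      simp only [mul_smul, xS_smul, sS_smul, CfsgLib.SLn.transvection_smul_apply]
      by_cases h1 : a = i.castSucc
      · subst h1; simp [hne i, (hne i).symm]
      by_cases h2 : a = i.succ
      · subst h2; simp [hne i, (hne i).symm]
        ring
      · simp [h1, h2]
    rw [e]
    exact mul_mem (mul_mem (hs i) (hup _ _ Fin.castSucc_lt_succ _)) (inv_mem (hs i))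
  have hdown : ∀ (d : ℕ) (i j : ι) (_ : (j : ℕ) = i + (d + 1)) (hij : j ≠ i) (c : F),
      (transvection hij c : SLG) ∈ K := by
    intro d
    induction d with
    | zero =>
      intro i j h hij c
      have hi : (i : ℕ) < k := by omega
      obtain rfl : j = (⟨i, hi⟩ : Fin k).succ := Fin.ext h
      exact hdown1 ⟨i, hi⟩ c
    | succ d ih =>
      intro i j h hij c
      have hi : (i : ℕ) + 1 < k + 1 := by omega
      let m : ι := ⟨i + 1, hi⟩
      have hmi : m ≠ i := fun e => by have := congrArg Fin.val e; simp [m] at this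
      have hjm : j ≠ m := fun e => by have := congrArg Fin.val e; simp [m] at this; omega
      have h1 : (transvection hjm c : SLG) ∈ K := ih m j (by simp [m]; omega) hjm c
      have h2 : (transvection hmi (1 : F) : SLG) ∈ K := by
        have hik : (i : ℕ) < k := by omega
        exact hdown1 ⟨i, hik⟩ 1
      rw [show (transvection hij c : SLG) = ⁅transvection hjm c, transvection hmi (1 : F)⁆ by
        rw [CfsgLib.SLn.commutator_transvection hjm hmi hij, mul_one], commutatorElement_def]
      exact mul_mem (mul_mem (mul_mem h1 h2) (inv_mem h1)) (inv_mem h2)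
  refine CfsgLib.SLn.eq_top_of_transvection K fun i j hij c => ?_
  rcases lt_or_gt_of_ne hij with h | h
  · exact hup i j h c
  · exact hdown (i - j - 1) j i (by rw [Fin.lt_def] at h; omega) hij c

/-- the apartment data -/
noncomputable def sys (k : ℕ) (F : Type*) [Field F] (hk : 1 ≤ k) :
    CfsgLib.StChar.Sys (Matrix.SpecialLinearGroup (Fin (k + 1)) F) F (Fin (k + 1)) (Fin (k + 1)) where
  toLayout := lay k F
  W := ⊤
  ε := Equiv.Perm.sign.comp (Subgroup.subtype ⊤)
  π0 := Fin.revPerm
  n0 := (exists_mono Fin.revPerm).choose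
  S := SS k F
  σ := sigmaOf
  R s p q := p < q ∧ sigmaOf s q < sigmaOf s p
  π0_mem := Subgroup.mem_top _
  n0_mono := (exists_mono Fin.revPerm).choose_spec
  anti p q h := Fin.rev_le_rev.2 h
  S_mono := by
    rintro _ ⟨i, rfl⟩
    rw [sigmaOf_sS]
    refine ⟨sS_mono i, Equiv.swap_mul_self _ _, Subgroup.mem_top _, ?_⟩
    exact Equiv.Perm.sign_swap (hne i)
  R_trans s p q r h h' := ⟨h.1.trans h'.1, h'.2.trans h.2⟩
  R_lt s _ p q h := h.1
  R_rev := by
    rintro _ ⟨i, rfl⟩ p q ⟨h1, h2⟩
    rw [sigmaOf_sS] at h2 ⊢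
    exact ⟨h2, by rw [Equiv.swap_apply_self, Equiv.swap_apply_self]; exact h1⟩
  orient := by
    rintro _ ⟨i, rfl⟩ π -
    simp only [sigmaOf_sS, inv_iff]
    rcases lt_or_gt_of_ne (fun e => hne i (π.injective e)) with h | h
    · exact Or.inl fun p q hpq => by rw [hpq.1, hpq.2]; exact h
    · exact Or.inr fun p q hpq => by rw [hpq.1, hpq.2]; exact h
  sepW π _ h := by
    have hmono : StrictMono π := Fin.strictMono_iff_lt_succ.2 fun i =>
      h _ ⟨i, rfl⟩ _ _ (by rw [sigmaOf_sS]; exact (inv_iff i _ _).2 ⟨rfl, rfl⟩)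
    have := perm_le_eq_one π⁻¹ fun p => by
      have h1 := hmono.id_le (π⁻¹ p)
      simpa using h1
    exact inv_eq_one.1 this
  X_nt := by
    rintro _ ⟨i, rfl⟩
    refine ⟨xS i 1, fun e => ?_, ?_⟩
    · have := congrArg (fun g : Matrix.SpecialLinearGroup (Fin (k + 1)) F => g.1 i.castSucc i.succ) e
      simp only [entry_eq (xS i _), xS_smul] at this
      simp [hne i] at this
    · rw [rootsOf_sS]; exact xS_supp i 1
  factor := by
    rintro _ ⟨i, rfl⟩ u hu
    set t := u.1 i.castSucc i.succ with ht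
    refine ⟨xS i t, by rw [rootsOf_sS]; exact xS_supp i t, ?_⟩
    rw [inv_eq_of_mul_eq_one_right (show xS i t * xS i (-t) = 1 by rw [xS_mul, add_neg_cancel, xS_zero])]
    rw [sigmaOf_sS]
    have h0 : ∀ a b, ¬ (a < b ∧ ¬ (a = i.castSucc ∧ b = i.succ)) →
        (u * xS i (-t)).1 a b = if a = b then 1 else 0 := by
      intro a b h
      rw [Matrix.SpecialLinearGroup.coe_mul, Matrix.mul_apply]
      have hx : ∀ c, (xS i (-t)).1 c b = (if c = b then 1 else 0) +
          if c = i.castSucc ∧ b = i.succ then -t else 0 := by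
        intro c
        rw [entry_eq, xS_smul, Pi.single_apply, Pi.single_apply]
        by_cases h1 : c = i.castSucc <;> by_cases h2 : b = i.succ <;> simp [h1, h2, Ne.symm]
      simp only [hx, mul_add, mul_ite, mul_one, mul_zero, Finset.sum_add_distrib,
        Finset.sum_ite_eq', Finset.mem_univ, if_true, ite_and]
      have hu' := (supp_iff _ u).1 hu
      by_cases hb : b = i.succ
      · subst hb
        simp only [if_true, Finset.sum_ite_eq', Finset.mem_univ]
        by_cases ha : a = i.castSucc
        · subst ha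
          rw [← ht, hu' i.castSucc i.castSucc (lt_irrefl _), if_pos rfl, if_neg (hne i), one_mul,
            add_neg_cancel]
        · have hab : ¬ a < i.succ := fun hlt => h ⟨hlt, fun e => ha e.1⟩
          have hac : ¬ a < i.castSucc := fun hlt => hab (hlt.trans Fin.castSucc_lt_succ)
          rw [hu' a _ hab, hu' a _ hac, if_neg ha, zero_mul, add_zero]
      · have hab : ¬ a < b := fun hlt => h ⟨hlt, fun e => hb e.2⟩
        simp only [hb, if_false, Finset.sum_const_zero, add_zero]
        exact hu' a b hab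
    refine (supp_iff _ _).2 fun a b h => h0 a b fun hh => h ⟨hh.1, out_iff i a b hh.1 hh.2⟩
  rank1 := by
    rintro _ ⟨i, rfl⟩ x hx hx1
    rw [rootsOf_sS] at hx
    have e := eq_xS i hx
    have ht : x.1 i.castSucc i.succ ≠ 0 := fun h0 => hx1 (by rw [e, h0, xS_zero])
    refine ⟨_, _, _, ?_, ?_, diag_mono (hne i) _ (neg_ne_zero.2 ht), (congrArg (fun y => sS i * y * sS i) e).trans (rank i ht)⟩
    · rw [rootsOf_sS]; exact xS_supp i _
    · rw [rootsOf_sS]; exact xS_supp i _
  gen := gen_eq_top hk

theorem hblock [Finite F] {p : ℕ} [Fact p.Prime] [CharP F p] (g : SLG)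
    (hg : (lay k F).Supp (· ≤ ·) g) (hp : ∃ j : ℕ, g ^ p ^ j = 1) :
    ∀ i j, (lay k F).pos i = (lay k F).pos j → ((lay k F).mat g - 1) i j = 0 := by
  intro i j hij
  change i = j at hij
  subst hij
  obtain ⟨e, he⟩ := hp
  have hmul : ∀ a : ℕ, (g ^ a).1 i i = (g.1 i i) ^ a := by
    intro a
    induction a with
    | zero => simp
    | succ a ih =>
      rw [pow_succ, Matrix.SpecialLinearGroup.coe_mul, Matrix.mul_apply, Finset.sum_eq_single i, ih,
        pow_succ]
      · intro b _ hb
        by_contra hc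
        have h0 : (lay k F).Supp (fun a b : ι => a ≤ b) (g ^ a) :=
          Layout.Supp.pow (L := lay k F) (R := fun a b : ι => a ≤ b) (fun _ _ _ => le_trans) hg a
        have h1 : i ≤ b := Layout.Supp.entry (L := lay k F) h0
          (show (lay k F).mat (g ^ a) i b ≠ 0 from left_ne_zero_of_mul hc)
        have h2 : b ≤ i := Layout.Supp.entry (L := lay k F) hg
          (show (lay k F).mat g b i ≠ 0 from right_ne_zero_of_mul hc)
        exact hb (le_antisymm h2 h1)
      · simp
  have h1 : (g.1 i i) ^ p ^ e = 1 := by rw [← hmul, he]; simp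
  have h2 : (g.1 i i - 1) ^ p ^ e = 0 := by rw [sub_pow_char_pow, h1, one_pow, sub_self]
  rw [mat_apply, Matrix.sub_apply, Matrix.one_apply_eq]
  exact (pow_eq_zero_iff (pow_ne_zero _ (Fact.out : p.Prime).ne_zero)).1 h2

universe u

theorem rigid_psl {F : Type} [Field F] [Fintype F] {p : ℕ} [Fact p.Prime] [CharP F p] {n : ℕ}
    (hn : 2 ≤ n) [IsSimpleGroup (Matrix.ProjectiveSpecialLinearGroup (Fin n) F)] :
    Rigid p (Matrix.ProjectiveSpecialLinearGroup (Fin n) F) := by
  obtain ⟨k, rfl⟩ : ∃ k, n = k + 1 := ⟨n - 1, by omega⟩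
  exact rigid_layout (sys k F (by omega)) (fun g hg hp => hblock g hg hp)
    ⟨sS ⟨0, by omega⟩, _, rfl⟩ (QuotientGroup.mk' _) (QuotientGroup.mk'_surjective _)
    (le_of_eq (QuotientGroup.ker_mk' _))

end CfsgLib.SylowRigid.SL
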