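import Cfsg.Agent.SylowRigid.Chevalley
import Cfsg.Agent.SylowRigid.Linear
import Cfsg.Agent.StChar.Sp
import Cfsg.Agent.StChar.SU
import Cfsg.Agent.StChar.OTransport
import Cfsg.Agent.StChar.OSmall
import Cfsg.Agent.OrthOrder.Center
import Cfsg.Agent.Sz.Sylow
import Cfsg.Agent.S0323

/-!
The symplectic, unitary, orthogonal and Suzuki groups.
-/

set_option autoImplicit false

namespace CfsgLib.SylowRigid

variable {F : Type} [Field F] [Fintype F] {p : ℕ} [Fact p.Prime] [CharP F p]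

theorem rigid_psp {m : ℕ} (hm : 1 ≤ m) [IsSimpleGroup (Cfsg.PSp m F)] : Rigid p (Cfsg.PSp m F) := by
  classical
  obtain ⟨k, rfl⟩ : ∃ k, m = k + 1 := ⟨m - 1, by omega⟩
  exact rigid_layout (CfsgLib.StChar.Sp.sys k F) (fun g hg hp => CfsgLib.StChar.Sp.hblock g hg hp)
    ⟨CfsgLib.StChar.Sp.sL, Or.inr rfl⟩
    (QuotientGroup.mk' (Subgroup.center (Matrix.symplecticGroup (Fin (k + 1)) F)))
    (QuotientGroup.mk'_surjective _) (le_of_eq (QuotientGroup.ker_mk' _))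

theorem rigid_psu {n q : ℕ} (hn : 2 ≤ n) (hF : Fintype.card F = q ^ 2)
    [IsSimpleGroup (Cfsg.PSU n F q)] : Rigid p (Cfsg.PSU n F q) := by
  classical
  obtain ⟨C⟩ := CfsgLib.UGeom.nonempty_conj hF
  obtain ⟨k, r, hr, hn'⟩ : ∃ k r, r ≤ 1 ∧ n = (k + 1) + (k + 1) + r :=
    ⟨n / 2 - 1, n % 2, by omega, by omega⟩
  haveI : Subsingleton (Fin r) := ⟨fun a b => Fin.ext (by omega)⟩
  obtain ⟨D⟩ := CfsgLib.UTwoGen.nonempty_frame C hn'
  exact rigid_layout (CfsgLib.StChar.SU.sys D) (fun g hg hp => CfsgLib.StChar.SU.hblock D g hg hp)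
    ⟨CfsgLib.StChar.SU.sL D, Or.inr rfl⟩
    (QuotientGroup.mk' (Subgroup.center (Cfsg.SU n F q)))
    (QuotientGroup.mk'_surjective _) (le_of_eq (QuotientGroup.ker_mk' _))

section Orth

open QuadraticMap CfsgLib.Forms CfsgLib.StChar CfsgLib.StChar.Orth

variable {ι : Type} [Fintype ι] [DecidableEq ι] {Q : QuadraticForm F (ι → F)}

theorem rigid_of_sys {κ P : Type*} [Fintype κ] [DecidableEq κ] [PartialOrder P] [Finite P]
    [Finite (rootGroup Q)] (hQ : (polarBilin Q).Nondegenerate) (hn : 5 ≤ Fintype.card ι)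
    (S : CfsgLib.StChar.Sys (rootGroup Q) F κ P)
    (hblock : ∀ g, S.toLayout.Supp (· ≤ ·) g → (∃ j : ℕ, g ^ p ^ j = 1) →
      ∀ i j, S.pos i = S.pos j → (S.mat g - 1) i j = 0) (hS : S.S.Nonempty)
    [IsSimpleGroup (Cfsg.POmega F ⇑Q)] : Rigid p (Cfsg.POmega F ⇑Q) := by
  obtain ⟨e⟩ := exists_rootGroup_equiv hQ hn
  refine rigid_layout S hblock hS
    ((QuotientGroup.mk' (Subgroup.center (Cfsg.Omega F ⇑Q))).comp e.toMonoidHom)
    ((QuotientGroup.mk'_surjective _).comp e.surjective) ?_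
  intro x hx
  have hx' : e x ∈ Subgroup.center (Cfsg.Omega F ⇑Q) := (QuotientGroup.eq_one_iff (e x)).1 hx
  rw [Subgroup.mem_center_iff] at hx' ⊢
  intro g
  apply e.injective
  rw [map_mul, map_mul, hx' (e g)]

theorem rigid_B {k d : ℕ} (D : OFrame Q k d) (hd : 0 < d) (hd2 : d ≤ 2)
    (hQ : (polarBilin Q).Nondegenerate) (hn : 5 ≤ Fintype.card ι)
    [IsSimpleGroup (Cfsg.POmega F ⇑Q)] : Rigid p (Cfsg.POmega F ⇑Q) := by
  have hn' : 5 ≤ Module.finrank F (ι → F) := by rwa [Module.finrank_fintype_fun_eq_card]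
  haveI : Finite (rootGroup Q) := OB.finite_rootGroup
  exact rigid_of_sys hQ hn (OB.sys D hd hQ hn')
    (fun g hg hp => OB.hblock D hd hQ hn' hd2 (refl_not_mem_root hQ hn) g hg hp) ⟨_, Or.inr rfl⟩

theorem rigid_D {k : ℕ} (D : OFrame Q (k + 1) 0)
    (hQ : (polarBilin Q).Nondegenerate) (hn : 5 ≤ Fintype.card ι)
    [IsSimpleGroup (Cfsg.POmega F ⇑Q)] : Rigid p (Cfsg.POmega F ⇑Q) := by
  have hn' : 5 ≤ Module.finrank F (ι → F) := by rwa [Module.finrank_fintype_fun_eq_card]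
  haveI : Finite (rootGroup Q) := OD.finite_rootGroup
  exact rigid_of_sys hQ hn (OD.sys D hQ hn')
    (fun g hg hp => OD.hblock D hQ hn' (refl_not_mem_root hQ hn) g hg hp) ⟨_, Or.inr rfl⟩

end Orth

theorem rigid_odd {m : ℕ} (hm : 2 ≤ m) (hodd : Odd (Fintype.card F))
    [h : IsSimpleGroup (Cfsg.POmega F (Cfsg.quadFormOdd m F))] :
    Rigid p (Cfsg.POmega F (Cfsg.quadFormOdd m F)) := by
  obtain ⟨k, rfl⟩ : ∃ k, m = k + 1 := ⟨m - 1, by omega⟩
  have h2 := CfsgLib.OrthOrder.two_ne_zero_of_odd hodd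
  haveI : IsSimpleGroup (Cfsg.POmega F ⇑(CfsgLib.Forms.quadOdd F (k + 1))) := by
    rw [CfsgLib.Forms.coe_quadOdd]; exact h
  have := rigid_B (p := p) (CfsgLib.StChar.Orth.oframeOdd (F := F) k) Nat.one_pos
    (by omega) (CfsgLib.Forms.nondegenerate_quadOdd (k + 1) h2) (by simp; omega)
  rw [CfsgLib.Forms.coe_quadOdd] at this
  exact this

theorem rigid_plus {m : ℕ} (hm : 3 ≤ m) [h : IsSimpleGroup (Cfsg.POmega F (Cfsg.quadFormPlus m F))] :
    Rigid p (Cfsg.POmega F (Cfsg.quadFormPlus m F)) := by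
  obtain ⟨k, rfl⟩ : ∃ k, m = k + 3 := ⟨m - 3, by omega⟩
  haveI : IsSimpleGroup (Cfsg.POmega F ⇑(CfsgLib.Forms.quadPlus F (k + 3))) := by
    rw [CfsgLib.Forms.coe_quadPlus]; exact h
  have := rigid_D (p := p) (CfsgLib.StChar.Orth.oframePlus (F := F) (k + 2))
    (CfsgLib.Forms.nondegenerate_quadPlus (k + 3)) (by simp; omega)
  rw [CfsgLib.Forms.coe_quadPlus] at this
  exact this

theorem rigid_minus {m : ℕ} (hm : 2 ≤ m) {a b : F}
    (hab : ∀ z₁ z₂ : F, z₁ ^ 2 + a * z₁ * z₂ + b * z₂ ^ 2 = 0 → z₁ = 0 ∧ z₂ = 0)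
    [h : IsSimpleGroup (Cfsg.POmega F (Cfsg.quadFormMinus m F a b))] :
    Rigid p (Cfsg.POmega F (Cfsg.quadFormMinus m F a b)) := by
  obtain ⟨k, rfl⟩ : ∃ k, m = k + 1 := ⟨m - 1, by omega⟩
  haveI : IsSimpleGroup (Cfsg.POmega F ⇑(CfsgLib.Forms.quadMinus F (k + 1) a b)) := by
    rw [CfsgLib.Forms.coe_quadMinus]; exact h
  have := rigid_B (p := p) (CfsgLib.StChar.Orth.oframeMinus k hab) Nat.two_pos
    le_rfl (CfsgLib.Forms.nondegenerate_quadMinus (k + 1) hab) (by simp; omega)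
  rw [CfsgLib.Forms.coe_quadMinus] at this
  exact this

section Suzuki

open CfsgLib.Sz
open scoped Pointwise

theorem rigid_sz {F : Type} [Field F] [Fintype F] {m : ℕ} (h : Hyp F m) [IsSimpleGroup (G F m)] :
    Rigid 2 (G F m) := by
  haveI : Fact (Nat.Prime 2) := ⟨Nat.prime_two⟩
  classical
  letI := ovAction h
  have hne : (oinf m : Ov F m) ≠ opt m 0 0 := (opt_ne_oinf m 0 0).symm
  have hne' : (opt m (0 : F) 0 : Ov F m) ≠ opt m 1 0 := fun e =>
    zero_ne_one (opt_injective m e).1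
  obtain ⟨P, hB, hN, hr⟩ := Cfsg.Agent.S0323.result (two_transitive h) hne hne' (opt_ne_oinf m 1 0).symm
  have hB' : P.B = borel h := hB
  have hT : ∀ t ∈ P.B ⊓ P.N, ∃ s : Fˣ, t = gD h s := by
    intro t ht
    rw [hB', hN] at ht
    obtain ⟨h1, h2⟩ := Subgroup.mem_inf.1 ht
    obtain ⟨a, b, s, rfl⟩ := (mem_borel_iff h).1 h1
    have hfix : (gU h a b * gD h s) • opt m (0 : F) 0 = opt m (0 : F) 0 := by
      have h3 : (gU h a b * gD h s) • opt m (0 : F) 0 ∈ ({oinf m, opt m 0 0} : Set (Ov F m)) := by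
        rw [← MulAction.mem_stabilizer_iff.1 h2]
        exact Set.smul_mem_smul_set (Or.inr rfl)
      rcases h3 with h3 | h3
      · exact absurd (MulAction.injective (gU h a b * gD h s)
          ((show (gU h a b * gD h s) • oinf m = oinf m from h1).trans h3.symm)) hne
      · exact h3
    rw [mul_smul, show gD h s • opt m (0 : F) 0 = _ from gD_opt h s 0 0] at hfix
    rw [show gU h a b • opt m _ _ = _ from gU_opt h a b _ _] at hfix
    simp only [mul_zero, add_zero, zero_add] at hfix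
    obtain ⟨rfl, rfl⟩ := opt_injective m hfix
    exact ⟨s, by rw [gU_zero, one_mul]⟩
  have hS : P.S.Nonempty := by
    by_contra he
    rw [Set.not_nonempty_iff_eq_empty] at he
    rw [Cfsg.BNPair.rank, he] at hr
    simp at hr
  refine (exists_split (p := 2) P (Usub h) ?_ ?_ ?_ (isPGroup_Usub h) ?_ hS).elim Split.rigid
  · rintro g ⟨a, b, rfl⟩
    rw [hB']
    exact gU_oinf h a b
  · intro b hb u hu
    rw [hB'] at hb
    exact borel_normalizes h hb hu
  · intro b hb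
    rw [hB'] at hb
    obtain ⟨a, b', s, rfl⟩ := (mem_borel_iff h).1 hb
    refine mul_mem (Subgroup.mem_sup_left ⟨a, b', rfl⟩) (Subgroup.mem_sup_right ?_)
    refine Subgroup.mem_inf.2 ⟨hB' ▸ gD_oinf h s, ?_⟩
    rw [hN, MulAction.mem_stabilizer_iff, Set.smul_set_insert, Set.smul_set_singleton,
      show gD h s • oinf m = oinf m from gD_oinf h s,
      show gD h s • opt m (0 : F) 0 = _ from gD_opt h s 0 0]
    simp
  · intro t ht
    obtain ⟨s, rfl⟩ := hT t ht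
    intro hd
    have h1 := hd.trans (orderOf_map_dvd (gDhom h) s)
    have h2 := h1.trans (orderOf_dvd_card (x := s))
    rw [Fintype.card_units] at h2
    exact odd_part h (h2.mul_left _)

end Suzuki

end CfsgLib.SylowRigid
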