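import Cfsg.Agent.SylowRigid.Rigid
import Cfsg.Agent.StChar.Layout

/-!
A split BN-pair on a central quotient from apartment data.
-/

set_option autoImplicit false

namespace CfsgLib.SylowRigid

open CfsgLib.StChar

universe u v

section Apt

variable {G : Type u} [Group G] [Finite G] (D : Apt G) {p : ℕ} [hp : Fact p.Prime]

theorem rigid_apt (hU : IsPGroup p D.U)
    (hpB : ∀ g ∈ D.B, (∃ j : ℕ, g ^ p ^ j = 1) → g ∈ D.U)
    (hsep : ∀ n ∈ D.N, n ∉ D.B → ∃ u ∈ D.U, ∀ n' ∈ D.N, n'⁻¹ * u * n ∉ D.B)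
    (hne : D.S.Nonempty)
    {Q : Type v} [Group Q] [IsSimpleGroup Q] (π : G →* Q) (hπ : Function.Surjective π)
    (hcen : π.ker ≤ Subgroup.center G) : Rigid p Q := by
  classical
  haveI : Finite Q := Finite.of_surjective π hπ
  have hker : ∀ z, π z = 1 → z ∈ D.B := fun z hz => D.mem_B_of_normalizes hsep fun u hu => by
    rw [mul_assoc, Subgroup.mem_center_iff.1 (hcen hz) u, inv_mul_cancel_left]
    exact hu
  have hlift : ∀ a b, π a = π b → b ∈ D.B → a ∈ D.B := fun a b e hb => by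
    rw [show a = (a * b⁻¹) * b by group]
    exact mul_mem (hker _ (by rw [map_mul, map_inv, e, mul_inv_cancel])) hb
  have hUmem : ∀ g u : G, u ∈ D.U → g * u * g⁻¹ ∈ D.B → g * u * g⁻¹ ∈ D.U := fun g u hu h => by
    obtain ⟨j, hj⟩ := hU ⟨u, hu⟩
    refine hpB _ h ⟨j, ?_⟩
    rw [conj_pow, show u ^ p ^ j = 1 by simpa using congrArg Subtype.val hj, mul_one, mul_inv_cancel]
  have hUmem' : ∀ g u : G, u ∈ D.U → g⁻¹ * u * g ∈ D.B → g⁻¹ * u * g ∈ D.U := fun g u hu h => by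
    have := hUmem g⁻¹ u hu (by rwa [inv_inv])
    rwa [inv_inv] at this
  set T : Subgroup G := D.N ⊓ D.B with hTdef
  have memT : ∀ t, t ∈ T ↔ t ∈ D.N ∧ t ∈ D.B := fun t => Subgroup.mem_inf
  have hTconj : ∀ n ∈ D.N, ∀ t ∈ T, n * t * n⁻¹ ∈ T := fun n hn t ht =>
    (memT _).2 ⟨mul_mem (mul_mem hn ((memT t).1 ht).1) (inv_mem hn),
      D.normal n hn t ((memT t).1 ht).1 ((memT t).1 ht).2⟩
  have hTconj' : ∀ n ∈ D.N, ∀ t ∈ T, n⁻¹ * t * n ∈ T := fun n hn t ht => by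
    have := hTconj n⁻¹ (inv_mem hn) t ht
    rwa [inv_inv] at this
  have hsqT : ∀ s ∈ D.S, s * s ∈ T := fun s hs =>
    (memT _).2 ⟨mul_mem (D.S_sub hs) (D.S_sub hs), D.sq s hs⟩
  have hTn : T ≤ Subgroup.normalizer (D.U : Set G) := fun t ht =>
    Subgroup.mem_normalizer_iff.2 fun u => ⟨fun hu => D.normU t ((memT t).1 ht).1 ((memT t).1 ht).2 u hu,
      fun hu => by
        have := D.normU t⁻¹ (inv_mem ((memT t).1 ht).1) (inv_mem ((memT t).1 ht).2) _ hu
        simpa [mul_assoc] using this⟩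
  set B0 : Subgroup G := D.U ⊔ T with hB0def
  have hUB0 : D.U ≤ B0 := le_sup_left
  have hTB0 : T ≤ B0 := le_sup_right
  have hB0B : B0 ≤ D.B := sup_le D.U_le inf_le_right
  have hdec : ∀ b ∈ B0, ∃ u ∈ D.U, ∃ t ∈ T, b = u * t := fun b hb => by
    have h : b ∈ ((D.U ⊔ T : Subgroup G) : Set G) := hb
    rw [Subgroup.coe_mul_of_right_le_normalizer_left _ _ hTn, Set.mem_mul] at h
    obtain ⟨u, hu, t, ht, rfl⟩ := h
    exact ⟨u, hu, t, ht, rfl⟩
  set N0 : Subgroup G := Subgroup.closure D.S ⊔ T with hN0def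
  have hN0 : N0 ≤ D.N := sup_le ((Subgroup.closure_le _).2 D.S_sub) inf_le_left
  have hTN0 : T ≤ N0 := le_sup_right
  have hSN0 : ∀ s ∈ D.S, s ∈ N0 := fun s hs => Subgroup.mem_sup_left (Subgroup.subset_closure hs)
  have hsB : ∀ s ∈ D.S, s ∉ D.B := fun s hs h =>
    absurd ((D.eps_B ⟨s, D.S_sub hs⟩ h).symm.trans (D.eps_S ⟨s, D.S_sub hs⟩ hs)) (by decide)
  have hunion : ∀ s ∈ D.S, ∀ n ∈ D.N, ∀ b ∈ B0, ∃ b₁ ∈ B0, ∃ b₂ ∈ B0,
      s * b * n = b₁ * (s * n) * b₂ ∨ s * b * n = b₁ * n * b₂ := by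
    intro s hs n hn b hb
    obtain ⟨u, hu, t, ht, rfl⟩ := hdec b hb
    obtain ⟨u', hu', x, hx, hsu, rfl⟩ := D.factor s hs u hu
    have ht' : n⁻¹ * t * n ∈ B0 := hTB0 (hTconj' n hn t ht)
    have hxU := D.X_le s hs hx
    have first : ∀ y ∈ B0, x * n = n * y → ∃ b₁ ∈ B0, ∃ b₂ ∈ B0,
        s * (u' * x * t) * n = b₁ * (s * n) * b₂ := fun y hy e =>
      ⟨s * u' * s⁻¹, hUB0 hsu, y * (n⁻¹ * t * n), mul_mem hy ht', by
        rw [show s * (u' * x * t) * n = s * u' * s⁻¹ * (s * (x * n)) * (n⁻¹ * t * n) by group, e]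
        group⟩
    rcases D.dich s hs n hn with h | h
    · obtain ⟨b₁, h1, b₂, h2, e⟩ := first (n⁻¹ * x * n) (hUB0 (hUmem' n x hxU (h x hx))) (by group)
      exact ⟨b₁, h1, b₂, h2, Or.inl e⟩
    · rcases eq_or_ne x 1 with hx1 | hx1
      · obtain ⟨b₁, h1, b₂, h2, e⟩ := first 1 (one_mem _) (by rw [hx1]; group)
        exact ⟨b₁, h1, b₂, h2, Or.inl e⟩
      obtain ⟨x', hx', t₀, ht₀N, x'', hx'', ht₀B, e⟩ := D.rank1 s hs x hx hx1
      have ht₀ : t₀ ∈ T := (memT _).2 ⟨ht₀N, ht₀B⟩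
      have hy : (s * n)⁻¹ * x'' * (s * n) ∈ B0 :=
        hUB0 (hUmem' (s * n) x'' (D.X_le s hs hx'') (h x'' hx''))
      refine ⟨s * u' * s⁻¹ * x', mul_mem (hUB0 hsu) (hUB0 (D.X_le s hs hx')),
        (n⁻¹ * (s * t₀ * s⁻¹ * (s * s)) * n) * ((s * n)⁻¹ * x'' * (s * n)) *
          (n⁻¹ * (s * s)⁻¹ * n) * (n⁻¹ * t * n),
        mul_mem (mul_mem (mul_mem (hTB0 (hTconj' n hn _ (mul_mem (hTconj s (D.S_sub hs) _ ht₀) (hsqT s hs))))
          hy) (hTB0 (hTconj' n hn _ (inv_mem (hsqT s hs))))) ht', Or.inr ?_⟩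
      rw [show s * (u' * x * t) * n = s * u' * s⁻¹ * (s * x * s) * (s⁻¹ * t * n) by group, e]
      group
  let C := {c : G ⧸ T // ∃ s ∈ D.S, (s : G ⧸ T) = c}
  let r : C → G := fun c => c.2.choose
  have hr : ∀ c, r c ∈ D.S ∧ (r c : G ⧸ T) = c.1 := fun c => c.2.choose_spec
  have hrep : ∀ s ∈ D.S, ∃ c : C, (r c)⁻¹ * s ∈ T := fun s hs =>
    ⟨⟨(s : G ⧸ T), s, hs, rfl⟩, QuotientGroup.eq.1 (hr ⟨(s : G ⧸ T), s, hs, rfl⟩).2⟩
  have hBN : B0.map π ⊓ N0.map π = T.map π := by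
    refine le_antisymm ?_ (le_inf (Subgroup.map_mono hTB0) (Subgroup.map_mono hTN0))
    rintro x hx
    obtain ⟨⟨b, hb, rfl⟩, n, hn, e⟩ := Subgroup.mem_inf.1 hx
    exact ⟨n, (memT n).2 ⟨hN0 hn, hlift n b e (hB0B hb)⟩, e⟩
  let P : Cfsg.BNPair Q :=
    { B := B0.map π
      N := N0.map π
      S := Set.range fun c => π (r c)
      sup_eq_top := by
        rw [← Subgroup.map_sup, eq_top_iff, ← MonoidHom.range_eq_top.2 hπ, MonoidHom.range_eq_map]
        refine Subgroup.map_mono ?_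
        rw [← D.gen, Subgroup.closure_le]
        rintro g ((hg | hg) | hg)
        · exact Subgroup.mem_sup_left (hUB0 hg)
        · exact Subgroup.mem_sup_right (hSN0 g hg)
        · exact Subgroup.mem_sup_left (hTB0 ((memT g).2 hg))
      conj_mem := by
        rintro _ ⟨n, hn, rfl⟩ x hx
        rw [hBN] at hx
        obtain ⟨t, ht, rfl⟩ := hx
        exact ⟨n * t * n⁻¹, hTB0 (hTconj n (hN0 hn) t ht), by rw [map_mul, map_mul, map_inv]⟩
      subset := by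
        rintro _ ⟨c, rfl⟩
        exact ⟨r c, hSN0 _ (hr c).1, rfl⟩
      sq_mem := by
        rintro _ ⟨c, rfl⟩
        exact ⟨r c * r c, hTB0 (hsqT _ (hr c).1), map_mul _ _ _⟩
      inj := by
        rintro _ ⟨c, rfl⟩ _ ⟨c', rfl⟩ ⟨b, hb, e⟩
        have h : (r c)⁻¹ * r c' ∈ T :=
          (memT _).2 ⟨mul_mem (inv_mem (D.S_sub (hr c).1)) (D.S_sub (hr c').1),
            hlift _ b (by rw [map_mul, map_inv, e]) (hB0B hb)⟩
        have : c = c' := Subtype.ext ((hr c).2.symm.trans ((QuotientGroup.eq.2 h).trans (hr c').2))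
        rw [this]
      closure_sup := by
        rw [hBN]
        refine le_antisymm (sup_le ((Subgroup.closure_le _).2 ?_) (Subgroup.map_mono hTN0)) ?_
        · rintro _ ⟨c, rfl⟩
          exact ⟨r c, hSN0 _ (hr c).1, rfl⟩
        · rw [hN0def, Subgroup.map_sup, MonoidHom.map_closure]
          refine sup_le ((Subgroup.closure_le _).2 ?_) le_sup_right
          rintro _ ⟨s, hs, rfl⟩
          obtain ⟨c, hc⟩ := hrep s hs
          rw [show s = r c * ((r c)⁻¹ * s) by group, map_mul]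
          exact mul_mem (Subgroup.mem_sup_left (Subgroup.subset_closure ⟨c, rfl⟩))
            (Subgroup.mem_sup_right (Subgroup.mem_map_of_mem π hc))
      mul_mem_union := by
        rintro _ ⟨c, rfl⟩ _ ⟨n, hn, rfl⟩ _ ⟨b, hb, rfl⟩
        obtain ⟨b₁, h1, b₂, h2, e | e⟩ := hunion _ (hr c).1 n (hN0 hn) b hb
        · refine Or.inl (DoubleCoset.mem_doubleCoset.2 ⟨_, Subgroup.mem_map_of_mem π h1, _,
            Subgroup.mem_map_of_mem π h2, ?_⟩)
          simp only [← map_mul, e]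
        · refine Or.inr (DoubleCoset.mem_doubleCoset.2 ⟨_, Subgroup.mem_map_of_mem π h1, _,
            Subgroup.mem_map_of_mem π h2, ?_⟩)
          simp only [← map_mul, e]
      conj_ne := by
        rintro _ ⟨c, rfl⟩ h
        obtain ⟨x, hx, hx1⟩ := D.X_nt _ (hr c).1
        obtain ⟨b, hb, e'⟩ : π (r c) * π x * π (r c) ∈ B0.map π := by
          rw [← SetLike.mem_coe, ← h]
          exact ⟨π x, Subgroup.mem_map_of_mem π (hUB0 (D.X_le _ (hr c).1 hx)), rfl⟩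
        have hB : r c * x * r c ∈ D.B := hlift _ b (by rw [map_mul, map_mul, e']) (hB0B hb)
        obtain ⟨x', hx', t₀, ht₀N, x'', hx'', ht₀B, e⟩ := D.rank1 _ (hr c).1 x hx hx1
        rw [e] at hB
        refine hsB _ (hr c).1 ?_
        have := mul_mem (mul_mem (inv_mem (D.U_le (D.X_le _ (hr c).1 hx'))) hB)
          (inv_mem (mul_mem ht₀B (D.U_le (D.X_le _ (hr c).1 hx''))))
        rwa [show x'⁻¹ * (x' * r c * t₀ * x'') * (t₀ * x'')⁻¹ = r c by group] at this }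
  refine (exists_split (p := p) P (D.U.map π) (Subgroup.map_mono hUB0) ?_ ?_ (hU.map π) ?_ ?_).elim
    Split.rigid
  · rintro _ ⟨b, hb, rfl⟩ _ ⟨u, hu, rfl⟩
    obtain ⟨v, hv, t, ht, rfl⟩ := hdec b hb
    refine ⟨v * t * u * (v * t)⁻¹, ?_, by simp only [map_mul, map_inv]⟩
    rw [show v * t * u * (v * t)⁻¹ = v * (t * u * t⁻¹) * v⁻¹ by group]
    exact mul_mem (mul_mem hv (D.normU t ((memT t).1 ht).1 ((memT t).1 ht).2 u hu)) (inv_mem hv)
  · show B0.map π ≤ D.U.map π ⊔ (B0.map π ⊓ N0.map π)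
    rw [hBN, ← Subgroup.map_sup]
  · intro x hx
    change x ∈ B0.map π ⊓ N0.map π at hx
    rw [hBN] at hx
    obtain ⟨t, ht, rfl⟩ := hx
    intro hdvd
    have h := hdvd.trans (orderOf_map_dvd π t)
    set z := t ^ (orderOf t / p) with hzdef
    have hz : z ^ p = 1 := by rw [hzdef, ← pow_mul, Nat.div_mul_cancel h, pow_orderOf_eq_one]
    have hzT : z ∈ T := pow_mem ht _
    have hzU : z ∈ D.U := hpB z ((memT z).1 hzT).2 ⟨1, by rw [pow_one]; exact hz⟩
    have hz1 : z = 1 := D.opp z hzU (z * D.n0) (mul_mem ((memT z).1 hzT).1 D.n0_mem) (by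
      rw [show (z * D.n0)⁻¹ * z * D.n0 = 1 by group]; exact one_mem _)
    have h1 := orderOf_dvd_of_pow_eq_one hz1
    have h2 : orderOf t / p < orderOf t := Nat.div_lt_self (orderOf_pos t) hp.out.one_lt
    have h3 : 0 < orderOf t / p := Nat.div_pos (Nat.le_of_dvd (orderOf_pos t) h) hp.out.pos
    exact absurd (Nat.le_of_dvd h3 h1) (not_le.2 h2)
  · obtain ⟨s, hs⟩ := hne
    exact ⟨_, (hrep s hs).choose, rfl⟩

end Apt

section Layout

variable {G F ι P : Type*} [Group G] [Field F] [Fintype ι] [DecidableEq ι] [PartialOrder P]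
  [Finite G] [Finite P] (D : CfsgLib.StChar.Sys G F ι P) {p : ℕ} [Fact p.Prime] [CharP F p]

theorem rigid_layout
    (hblock : ∀ g, D.Supp (· ≤ ·) g → (∃ j : ℕ, g ^ p ^ j = 1) →
      ∀ i j, D.pos i = D.pos j → (D.mat g - 1) i j = 0) (hne : D.S.Nonempty)
    {Q : Type v} [Group Q] [IsSimpleGroup Q] (π : G →* Q) (hπ : Function.Surjective π)
    (hcen : π.ker ≤ Subgroup.center G) : Rigid p Q := by
  refine rigid_apt D.apt D.pgroup (fun g hg hp => ?_) (fun n hn hnB => ?_) hne π hπ hcen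
  · intro i j hij
    exact lt_of_le_of_ne (hg i j hij) fun e => hij (hblock g hg hp i j e)
  · obtain ⟨ρ, hρ, hn⟩ := hn
    have hρ1 : ρ⁻¹ ≠ 1 := by
      intro e
      rw [inv_eq_one] at e
      subst e
      exact hnB (D.upper_of_mono_one hn)
    obtain ⟨s, hs, a, b, hR, hnot⟩ : ∃ s ∈ D.S, ∃ a b, D.R s a b ∧ ¬ ρ⁻¹ a < ρ⁻¹ b := by
      by_contra hc
      push Not at hc
      exact hρ1 (D.sepW _ (inv_mem hρ) fun s hs a b h => hc s hs a b h)
    obtain ⟨x, hx1, hx⟩ := D.X_nt s hs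
    refine ⟨x, Layout.Supp.mono hx (D.R_lt s hs), fun n' ⟨ρ', _, hn'⟩ hb => ?_⟩
    have hdec := (D.orient s hs ρ⁻¹ (inv_mem hρ)).resolve_left fun h => hnot (h a b hR)
    have hx' : x = n' * (n'⁻¹ * x * n) * n⁻¹ := by group
    have key : ∀ i j, D.mat x i j ≠ 0 → ρ'⁻¹ (D.pos i) ≤ ρ⁻¹ (D.pos j) := by
      intro i j hij
      rw [hx', map_mul, map_mul, Matrix.mul_apply] at hij
      obtain ⟨r, -, hr⟩ := Finset.exists_ne_zero_of_sum_ne_zero hij
      rw [Matrix.mul_apply] at hr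
      obtain ⟨l, -, hl⟩ := Finset.exists_ne_zero_of_sum_ne_zero (left_ne_zero_of_mul hr)
      rw [hn' i l (left_ne_zero_of_mul hl)]
      have a2 := Layout.Supp.entry hb (right_ne_zero_of_mul hl)
      rw [hn.inv r j (right_ne_zero_of_mul hr)] at a2
      simpa using a2
    have hxU : D.Supp (· < ·) x := Layout.Supp.mono hx (D.R_lt s hs)
    have he : ρ'⁻¹ * ρ = 1 := by
      refine perm_le_eq_one _ fun q => ?_
      obtain ⟨j, hj⟩ := D.surj (ρ q)
      have := key j j (by rw [Layout.Supp.diag hxU j]; exact one_ne_zero)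
      rw [Equiv.Perm.mul_apply, ← hj]
      refine this.trans (le_of_eq ?_)
      rw [hj]; simp
    obtain ⟨i, j, hij⟩ : ∃ i j, (D.mat x - 1) i j ≠ 0 := by
      by_contra hc
      push Not at hc
      exact hx1 (D.inj (by rw [map_one, ← sub_eq_zero]; ext i j; exact hc i j))
    have h2 := hx i j hij
    have hne : i ≠ j := fun e => (D.R_lt s hs _ _ h2).ne (by rw [e])
    have h3 := key i j (by simpa [Matrix.one_apply_ne hne] using hij)
    rw [eq_inv_of_mul_eq_one_left he] at h3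
    exact absurd (hdec _ _ h2) (not_lt_of_ge h3)

end Layout

end CfsgLib.SylowRigid
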