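import Mathlib
import Cfsg.Agent.BNPair.Simplicity
import Cfsg.Agent.SylowConj.Basic

/-!
# Automorphisms fixing the unipotent radical of a Borel subgroup

In a finite simple group with a split BN-pair whose `U` is a Sylow `p`-subgroup, an automorphism of
order prime to `p` fixing `U` pointwise is trivial.
-/

set_option autoImplicit false

namespace CfsgLib.SylowRigid

open scoped Pointwise

/-- A split BN-pair whose `U` is a Sylow `p`-subgroup. -/
structure Split (p : ℕ) (Q : Type*) [Group Q] extends Cfsg.BNPair Q where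
  U : Sylow p Q
  U_le : (U : Subgroup Q) ≤ B
  conj_U : ∀ b ∈ B, ∀ u ∈ (U : Subgroup Q), b * u * b⁻¹ ∈ (U : Subgroup Q)
  B_le : B ≤ (U : Subgroup Q) ⊔ (B ⊓ N)
  U_inf : (U : Subgroup Q) ⊓ (B ⊓ N) = ⊥
  S_nonempty : S.Nonempty

theorem pow_apply {Q : Type*} [Group Q] (α : MulAut Q) {g z : Q} (h : α g = g * z) (hz : α z = z)
    (k : ℕ) : (α ^ k) g = g * z ^ k := by
  induction k with
  | zero => simp
  | succ k ih =>
    rw [pow_succ', MulAut.mul_apply, ih, map_mul, h, map_pow, hz, pow_succ', mul_assoc]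

theorem pow_orderOf_apply {Q : Type*} [Group Q] (α : MulAut Q) {g z : Q} (h : α g = g * z)
    (hz : α z = z) : z ^ orderOf α = 1 := by
  have := pow_apply α h hz (orderOf α)
  rwa [pow_orderOf_eq_one, MulAut.one_apply, left_eq_mul] at this

/-- a `p`-element killed by a number prime to `p` -/
theorem eq_one_of_pow {Q : Type*} [Group Q] {p : ℕ} [hp : Fact p.Prime] {z : Q}
    (hz : ∃ j : ℕ, z ^ p ^ j = 1) {k : ℕ} (hk : ¬ p ∣ k) (h : z ^ k = 1) : z = 1 := by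
  obtain ⟨j, hj⟩ := hz
  have hc : Nat.Coprime k (p ^ j) :=
    Nat.Coprime.pow_right _ (Nat.coprime_comm.1 (hp.out.coprime_iff_not_dvd.2 hk))
  have h1 : orderOf z ∣ Nat.gcd k (p ^ j) :=
    Nat.dvd_gcd (orderOf_dvd_of_pow_eq_one h) (orderOf_dvd_of_pow_eq_one hj)
  rw [hc.gcd_eq_one, Nat.dvd_one, orderOf_eq_one_iff] at h1
  exact h1

namespace Split

variable {Q : Type*} [Group Q] [Finite Q] {p : ℕ} [hp : Fact p.Prime] (P : Split p Q)

/-- the torus -/
abbrev T : Subgroup Q := P.B ⊓ P.N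

/-- `U` as a subgroup -/
abbrev US : Subgroup Q := (P.U : Subgroup Q)

omit [Finite Q] hp in
theorem conj_T {n t : Q} (hn : n ∈ P.N) (ht : t ∈ P.T) : n * t * n⁻¹ ∈ P.T :=
  Subgroup.mem_inf.2 ⟨P.conj_mem n hn t ht,
    mul_mem (mul_mem hn (Subgroup.mem_inf.1 ht).2) (inv_mem hn)⟩

omit [Finite Q] hp in
theorem conj_T' {n t : Q} (hn : n ∈ P.N) (ht : t ∈ P.T) : n⁻¹ * t * n ∈ P.T := by
  have := P.conj_T (inv_mem hn) ht
  rwa [inv_inv] at this

omit [Finite Q] hp in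
theorem sq_T {s : Q} (hs : s ∈ P.S) : s * s ∈ P.T :=
  Subgroup.mem_inf.2 ⟨P.sq_mem s hs, mul_mem (P.subset hs) (P.subset hs)⟩

omit [Finite Q] hp in
theorem exists_ut {b : Q} (hb : b ∈ P.B) : ∃ u ∈ P.US, ∃ t ∈ P.T, b = u * t := by
  have hle : P.T ≤ Subgroup.normalizer (P.US : Set Q) := fun t ht =>
    Subgroup.mem_normalizer_iff.2 fun u => ⟨fun hu => P.conj_U t (Subgroup.mem_inf.1 ht).1 u hu,
      fun hu => by
        have := P.conj_U t⁻¹ (inv_mem (Subgroup.mem_inf.1 ht).1) _ hu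
        simpa [mul_assoc] using this⟩
  have : b ∈ ((P.US ⊔ P.T : Subgroup Q) : Set Q) := P.B_le hb
  rw [Subgroup.coe_mul_of_right_le_normalizer_left _ _ hle, Set.mem_mul] at this
  obtain ⟨u, hu, t, ht, rfl⟩ := this
  exact ⟨u, hu, t, ht, rfl⟩

omit [Finite Q] hp in
theorem exists_tu {b : Q} (hb : b ∈ P.B) : ∃ u ∈ P.US, ∃ t ∈ P.T, b = t * u := by
  obtain ⟨u, hu, t, ht, e⟩ := P.exists_ut (inv_mem hb)
  exact ⟨u⁻¹, inv_mem hu, t⁻¹, inv_mem ht, by rw [← mul_inv_rev, ← e, inv_inv]⟩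

theorem isP {u : Q} (hu : u ∈ P.US) : ∃ j : ℕ, u ^ p ^ j = 1 := by
  obtain ⟨j, hj⟩ := P.U.isPGroup' ⟨u, hu⟩
  exact ⟨j, by simpa using congrArg Subtype.val hj⟩

theorem mem_U {g : Q} (hg : g ∈ P.B) (hj : ∃ j : ℕ, g ^ p ^ j = 1) : g ∈ P.US := by
  refine CfsgLib.SylowConj.mem_of_mem_normalizer P.U g (Subgroup.mem_normalizer_iff.2 fun u => ?_) ?_
  · refine ⟨fun hu => P.conj_U g hg u hu, fun hu => ?_⟩
    have := P.conj_U g⁻¹ (inv_mem hg) _ hu
    simpa [mul_assoc] using this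
  · obtain ⟨j, hj⟩ := hj
    rintro ⟨x, hx⟩
    obtain ⟨k, rfl⟩ := Subgroup.mem_zpowers_iff.1 hx
    refine ⟨j, Subtype.ext ?_⟩
    show (g ^ k) ^ p ^ j = 1
    rw [← zpow_natCast, ← zpow_mul, mul_comm, zpow_mul, zpow_natCast, hj, one_zpow]

omit [Finite Q] hp in
theorem conj_pow_eq (g u : Q) (n : ℕ) : (g * u * g⁻¹) ^ n = g * u ^ n * g⁻¹ := conj_pow

theorem conj_mem_U {g u : Q} (hu : u ∈ P.US) (h : g * u * g⁻¹ ∈ P.B) : g * u * g⁻¹ ∈ P.US := by
  obtain ⟨j, hj⟩ := P.isP hu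
  exact P.mem_U h ⟨j, by rw [conj_pow, hj, mul_one, mul_inv_cancel]⟩

theorem not_dvd_orderOf {t : Q} (ht : t ∈ P.T) : ¬ p ∣ orderOf t := by
  intro h
  set z := t ^ (orderOf t / p) with hzdef
  have hz : z ^ p = 1 := by
    rw [hzdef, ← pow_mul, Nat.div_mul_cancel h, pow_orderOf_eq_one]
  have hzU : z ∈ P.US ⊓ P.T :=
    Subgroup.mem_inf.2 ⟨P.mem_U (pow_mem (Subgroup.mem_inf.1 ht).1 _) ⟨1, by rw [pow_one]; exact hz⟩,
      pow_mem ht _⟩
  rw [P.U_inf, Subgroup.mem_bot, hzdef] at hzU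
  have h1 := orderOf_dvd_of_pow_eq_one hzU
  have h2 : orderOf t / p < orderOf t := Nat.div_lt_self (orderOf_pos t) hp.out.one_lt
  have h3 : 0 < orderOf t / p := Nat.div_pos (Nat.le_of_dvd (orderOf_pos t) h) hp.out.pos
  exact absurd (Nat.le_of_dvd h3 h1) (not_le.2 h2)

omit [Finite Q] hp in
theorem false_of_conj {s : Q} (hs : s ∈ P.S) (h : ∀ b ∈ P.B, s * b * s⁻¹ ∈ P.B) : False := by
  refine P.conj_ne s hs ?_
  ext c
  constructor
  · rintro ⟨b, hb, rfl⟩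
    show s * b * s ∈ P.B
    rw [show s * b * s = s * b * s⁻¹ * (s * s) by group]
    exact mul_mem (h b hb) (P.sq_mem s hs)
  · intro hc
    refine ⟨s⁻¹ * c * s⁻¹, ?_, by group⟩
    rw [show s⁻¹ * c * s⁻¹ = (s * s)⁻¹ * (s * c * s⁻¹) by group]
    exact mul_mem (inv_mem (P.sq_mem s hs)) (h c hc)

omit [Finite Q] hp in
theorem exists_move {s : Q} (hs : s ∈ P.S) : ∃ x ∈ P.US, s * x * s⁻¹ ∉ P.B := by
  by_contra hc
  push Not at hc
  refine P.false_of_conj hs fun b hb => ?_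
  obtain ⟨u, hu, t, ht, rfl⟩ := P.exists_ut hb
  rw [show s * (u * t) * s⁻¹ = (s * u * s⁻¹) * (s * t * s⁻¹) by group]
  exact mul_mem (hc u hu) (P.conj_mem s (P.subset hs) t ht)

omit [Finite Q] hp in
theorem sandwich {s x : Q} (hs : s ∈ P.S) (hx : x ∈ P.B) (h : s * x * s⁻¹ ∉ P.B) :
    ∃ b₁ ∈ P.B, ∃ b₂ ∈ P.B, s * x * s = b₁ * s * b₂ := by
  rcases P.mul_mem_union s hs s (P.subset hs) x hx with h1 | h1
  · refine absurd ?_ h
    obtain ⟨a, ha, b, hb, e⟩ := DoubleCoset.mem_doubleCoset.1 h1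
    rw [show s * x * s⁻¹ = s * x * s * (s * s)⁻¹ by group, e]
    exact mul_mem (mul_mem (mul_mem ha (P.sq_mem s hs)) hb) (inv_mem (P.sq_mem s hs))
  · exact DoubleCoset.mem_doubleCoset.1 h1

theorem normalizer_le : Subgroup.normalizer (P.US : Set Q) ≤ P.B := by
  set M := Subgroup.normalizer (P.US : Set Q) with hMdef
  have hBM : P.B ≤ M := fun g hg => Subgroup.mem_normalizer_iff.2 fun u =>
    ⟨fun hu => P.conj_U g hg u hu, fun hu => by
      have := P.conj_U g⁻¹ (inv_mem hg) _ hu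
      simpa [mul_assoc] using this⟩
  have hS : P.S ∩ (M : Set Q) = ∅ := by
    refine Set.eq_empty_of_forall_notMem ?_
    rintro s ⟨hs, hsM⟩
    refine P.false_of_conj hs fun b hb => ?_
    obtain ⟨u, hu, t, ht, rfl⟩ := P.exists_ut hb
    rw [show s * (u * t) * s⁻¹ = (s * u * s⁻¹) * (s * t * s⁻¹) by group]
    exact mul_mem (P.U_le ((Subgroup.mem_normalizer_iff.1 hsM u).1 hu))
      (P.conj_mem s (P.subset hs) t ht)
  rw [CfsgLib.BNPair.eq_parabolic P.toBNPair M hBM, hS, Cfsg.BNPair.parabolic, Subgroup.closure_empty,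
    sup_bot_eq]

variable [IsSimpleGroup Q]

omit [Finite Q] hp in
theorem eq_bot_of_normal (K : Subgroup Q) [hK : K.Normal] (h : K ≤ P.B) : K = ⊥ := by
  refine hK.eq_bot_or_eq_top.resolve_right fun htop => ?_
  obtain ⟨s, hs⟩ := P.S_nonempty
  exact CfsgLib.BNPair.S_not_mem_B P.toBNPair ⟨s, hs⟩ (h (htop ▸ Subgroup.mem_top _))

theorem eq_one_of_centralizes_T {t : Q} (ht : t ∈ P.T) (hc : ∀ u ∈ P.US, t * u = u * t) : t = 1 := by
  set K : Subgroup Q := P.T ⊓ Subgroup.centralizer (P.US : Set Q) with hKdef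
  have mem_K : ∀ z, z ∈ K ↔ z ∈ P.T ∧ ∀ u ∈ P.US, z * u = u * z := fun z => by
    rw [hKdef, Subgroup.mem_inf, Subgroup.mem_centralizer_iff]
    exact and_congr_right fun _ => ⟨fun h u hu => (h u hu).symm, fun h u hu => (h u hu).symm⟩
  have hU : ∀ v ∈ P.US, ∀ z ∈ K, v⁻¹ * z * v = z := fun v hv z hz => by
    rw [mul_assoc, ((mem_K z).1 hz).2 v hv, inv_mul_cancel_left]
  have hT : ∀ a ∈ P.T, ∀ z ∈ K, a⁻¹ * z * a ∈ K := by
    intro a ha z hz
    refine (mem_K _).2 ⟨P.conj_T' (Subgroup.mem_inf.1 ha).2 ((mem_K z).1 hz).1, fun u hu => ?_⟩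
    have h1 := ((mem_K z).1 hz).2 _ (P.conj_U a (Subgroup.mem_inf.1 ha).1 u hu)
    calc a⁻¹ * z * a * u = a⁻¹ * (z * (a * u * a⁻¹)) * a := by group
      _ = a⁻¹ * (a * u * a⁻¹ * z) * a := by rw [h1]
      _ = u * (a⁻¹ * z * a) := by group
  have hS : ∀ s ∈ P.S, ∀ z ∈ K, s⁻¹ * z * s ∈ K := by
    intro s hs z hz
    obtain ⟨hzT, hzU⟩ := (mem_K z).1 hz
    set t2 := s⁻¹ * z * s with ht2
    have ht2T : t2 ∈ P.T := P.conj_T' (P.subset hs) hzT
    have hfix : ∀ x ∈ P.US, s * x * s⁻¹ ∈ P.B → t2 * x = x * t2 := by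
      intro x hx h
      have h1 := hzU _ (P.conj_mem_U hx h)
      calc t2 * x = s⁻¹ * (z * (s * x * s⁻¹)) * s := by rw [ht2]; group
        _ = s⁻¹ * (s * x * s⁻¹ * z) * s := by rw [h1]
        _ = x * t2 := by rw [ht2]; group
    refine (mem_K _).2 ⟨ht2T, fun x hx => ?_⟩
    by_cases h : s * x * s⁻¹ ∈ P.B
    · exact hfix x hx h
    obtain ⟨b₁, hb₁, b₂, hb₂, e⟩ := P.sandwich hs (P.U_le hx) h
    obtain ⟨u₁, hu₁, t₁, ht₁, rfl⟩ := P.exists_ut hb₁
    obtain ⟨u₂, hu₂, t₃, ht₃, rfl⟩ := P.exists_tu hb₂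
    set m := t₁ * s * t₃ with hm
    have hmN : m ∈ P.N :=
      mul_mem (mul_mem (Subgroup.mem_inf.1 ht₁).2 (P.subset hs)) (Subgroup.mem_inf.1 ht₃).2
    set c := s⁻¹ * t2 * s * z⁻¹ with hcdef
    have hc' : c ∈ K := by
      refine mul_mem ?_ (inv_mem hz)
      have := hT _ (P.sq_T hs) z hz
      rwa [show (s * s)⁻¹ * z * (s * s) = s⁻¹ * t2 * s by rw [ht2]; group] at this
    have e' : s * x * s = u₁ * m * u₂ := by rw [e, hm]; group
    set x1 := t2 * x * t2⁻¹ with hx1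
    have hx1U : x1 ∈ P.US := P.conj_U t2 (Subgroup.mem_inf.1 ht2T).1 x hx
    have hu₂c : u₂ * c⁻¹ = c⁻¹ * u₂ := (((mem_K _).1 (inv_mem hc')).2 u₂ hu₂).symm
    have hzu₁ : z * u₁ = u₁ * z := hzU u₁ hu₁
    have hzu₂ : z * u₂ = u₂ * z := hzU u₂ hu₂
    have h2 : s * x1 * s = u₁ * (z * m * z⁻¹ * c⁻¹) * u₂ := by
      calc s * x1 * s = z * (s * x * s) * z⁻¹ * c⁻¹ := by
            rw [hx1, hcdef, ht2]
            simp only [mul_inv_rev, inv_inv, mul_assoc, inv_mul_cancel_left, mul_inv_cancel_left]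
        _ = (z * u₁) * m * u₂ * z⁻¹ * c⁻¹ := by rw [e']; group
        _ = (u₁ * z) * m * u₂ * z⁻¹ * c⁻¹ := by rw [hzu₁]
        _ = u₁ * z * m * z⁻¹ * (z * u₂) * z⁻¹ * c⁻¹ := by group
        _ = u₁ * z * m * z⁻¹ * (u₂ * z) * z⁻¹ * c⁻¹ := by rw [hzu₂]
        _ = u₁ * z * m * z⁻¹ * (u₂ * c⁻¹) := by group
        _ = u₁ * z * m * z⁻¹ * (c⁻¹ * u₂) := by rw [hu₂c]
        _ = u₁ * (z * m * z⁻¹ * c⁻¹) * u₂ := by group
    have hq : s * (x1 * x⁻¹) * s⁻¹ ∈ P.B := by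
      rw [show s * (x1 * x⁻¹) * s⁻¹ = (s * x1 * s) * (s * x * s)⁻¹ by group, h2, e',
        show u₁ * (z * m * z⁻¹ * c⁻¹) * u₂ * (u₁ * m * u₂)⁻¹ =
          u₁ * (z * (m * (z⁻¹ * c⁻¹) * m⁻¹)) * u₁⁻¹ by group]
      refine mul_mem (mul_mem (P.U_le hu₁) ?_) (inv_mem (P.U_le hu₁))
      exact (Subgroup.mem_inf.1 (mul_mem hzT (P.conj_T hmN
        (mul_mem (inv_mem hzT) (inv_mem ((mem_K _).1 hc').1))))).1
    set q := x1 * x⁻¹ with hqdef
    have hqU : q ∈ P.US := mul_mem hx1U (inv_mem hx)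
    have hqc := hfix q hqU hq
    have hk : ∀ k : ℕ, t2 ^ k * x * (t2 ^ k)⁻¹ = q ^ k * x := by
      intro k
      induction k with
      | zero => simp
      | succ k ih =>
        rw [pow_succ' t2, show t2 * t2 ^ k * x * (t2 * t2 ^ k)⁻¹ =
            t2 * (t2 ^ k * x * (t2 ^ k)⁻¹) * t2⁻¹ by group, ih,
          show t2 * (q ^ k * x) * t2⁻¹ = (t2 * q ^ k * t2⁻¹) * x1 by rw [hx1]; group,
          show t2 * q ^ k = q ^ k * t2 from (Commute.pow_right hqc k).eq, mul_inv_cancel_right,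
          pow_succ, mul_assoc, hqdef, inv_mul_cancel_right]
    have hq1 := hk (orderOf t2)
    rw [pow_orderOf_eq_one, one_mul, inv_one, mul_one, right_eq_mul] at hq1
    have := eq_one_of_pow (P.isP hqU) (P.not_dvd_orderOf ht2T) hq1
    rw [hqdef, mul_inv_eq_one, hx1, mul_inv_eq_iff_eq_mul] at this
    exact this
  let M : Submonoid Q :=
    { carrier := {g | ∀ z ∈ K, g⁻¹ * z * g ∈ K}
      one_mem' := fun z hz => by simpa using hz
      mul_mem' := fun {a b} ha hb z hz => by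
        have := hb _ (ha z hz)
        rwa [show (a * b)⁻¹ * z * (a * b) = b⁻¹ * (a⁻¹ * z * a) * b by group] }
  have hM : ∀ g : Q, g ∈ M := by
    intro g
    have hg : g ∈ Subgroup.closure ((P.US : Set Q) ∪ (P.T : Set Q) ∪ P.S) := by
      have h : g ∈ P.parabolic P.S := by rw [CfsgLib.BNPair.parabolic_S]; trivial
      revert g
      show P.parabolic P.S ≤ _
      refine sup_le (P.B_le.trans (sup_le ?_ ?_)) (Subgroup.closure_mono Set.subset_union_right)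
      · exact fun x hx => Subgroup.subset_closure (Or.inl (Or.inl hx))
      · exact fun x hx => Subgroup.subset_closure (Or.inl (Or.inr hx))
    rw [← Subgroup.mem_toSubmonoid, Subgroup.closure_toSubmonoid_of_finite] at hg
    refine (Submonoid.closure_le (S := M)).2 ?_ hg
    rintro y ((hy | hy) | hy) z hz
    · rw [hU y hy z hz]; exact hz
    · exact hT y hy z hz
    · exact hS y hy z hz
  haveI : K.Normal := ⟨fun z hz g => by simpa using hM g⁻¹ z hz⟩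
  have hbot := P.eq_bot_of_normal K fun z hz => (Subgroup.mem_inf.1 ((mem_K z).1 hz).1).1
  exact Subgroup.mem_bot.1 (hbot ▸ (mem_K t).2 ⟨ht, hc⟩)

theorem centralizer_le {z : Q} (hz : ∀ u ∈ P.US, z * u = u * z) : z ∈ P.US := by
  have hzB : z ∈ P.B := P.normalizer_le (Subgroup.mem_normalizer_iff.2 fun u => by
    constructor
    · intro hu; rw [hz u hu, mul_inv_cancel_right]; exact hu
    · intro hu
      have h1 := hz _ hu
      rw [show z * u * z⁻¹ * z = z * u by group] at h1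
      have h2 : z * u * z⁻¹ = u := mul_left_cancel h1
      rwa [← h2])
  obtain ⟨u, hu, t, ht, rfl⟩ := P.exists_ut hzB
  have hcomm : Commute (u * t) u⁻¹ := Commute.inv_right (hz u hu)
  have hpow : t ^ orderOf t = (u⁻¹) ^ orderOf t * (u * t) ^ orderOf t := by
    rw [← hcomm.symm.mul_pow, inv_mul_cancel_left]
  rw [pow_orderOf_eq_one, inv_pow, eq_comm, inv_mul_eq_one] at hpow
  have huk : ∀ v ∈ P.US, u ^ orderOf t * v = v * u ^ orderOf t := fun v hv => by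
    rw [hpow]
    exact (Commute.pow_left (show Commute (u * t) v from hz v hv) _).eq
  have hu' : ∀ v ∈ P.US, u * v = v * u := by
    intro v hv
    obtain ⟨j, hj⟩ := P.isP hu
    have hcop : Nat.Coprime (orderOf t) (orderOf u) :=
      Nat.Coprime.coprime_dvd_right (orderOf_dvd_of_pow_eq_one hj)
        (Nat.Coprime.pow_right _ (Nat.coprime_comm.1
          (hp.out.coprime_iff_not_dvd.2 (P.not_dvd_orderOf ht))))
    obtain ⟨m, hm⟩ := exists_pow_eq_self_of_coprime hcop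
    have := Commute.pow_left (show Commute (u ^ orderOf t) v from huk v hv) m
    rw [hm] at this
    exact this.eq
  have ht1 : t = 1 := by
    refine P.eq_one_of_centralizes_T ht fun v hv => ?_
    refine mul_left_cancel (a := u) ?_
    calc u * (t * v) = (u * t) * v := by group
      _ = v * (u * t) := hz v hv
      _ = (v * u) * t := by group
      _ = (u * v) * t := by rw [hu' v hv]
      _ = u * (v * t) := by group
  simpa [ht1] using hu

variable (α : MulAut Q)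

theorem fix_B (hα : ¬ p ∣ orderOf α) (hfix : ∀ u ∈ P.US, α u = u) {g : Q} (hg : g ∈ P.B) : α g = g := by
  set z := g⁻¹ * α g with hzdef
  have hz : z ∈ P.US := P.centralizer_le fun u hu => by
    have h := P.conj_U g hg u hu
    have e := hfix _ h
    rw [map_mul, map_mul, map_inv, hfix u hu] at e
    calc z * u = g⁻¹ * (α g * u * (α g)⁻¹) * α g := by rw [hzdef]; group
      _ = g⁻¹ * (g * u * g⁻¹) * α g := by rw [e]
      _ = u * z := by rw [hzdef]; group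
  have h1 : α g = g * z := by rw [hzdef, mul_inv_cancel_left]
  rw [h1, eq_one_of_pow (P.isP hz) hα (pow_orderOf_apply α h1 (hfix z hz)), mul_one]

omit [Finite Q] hp [IsSimpleGroup Q] in
/-- the stabiliser of a neighbouring chamber moves every other panel -/
theorem panel {s s' : Q} (hs : s ∈ P.S) (hs' : s' ∈ P.S) (hne : s' ≠ s) {e : Q} (he : e ∈ P.B) :
    ∃ g ∈ P.B, s'⁻¹ * g * s' ∈ P.B ∧ s⁻¹ * e⁻¹ * g * s ∈ P.B := by
  let a : P.S := ⟨s, hs⟩
  let a' : P.S := ⟨s', hs'⟩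
  open CfsgLib.BNPair in
  have hlen : len P.toBNPair (σ P.toBNPair a) ≤ len P.toBNPair (σ P.toBNPair a' * σ P.toBNPair a) := by
    rw [len_σ, len_pair P.toBNPair (s := a) (s' := a') (fun h => hne (congrArg Subtype.val h))]
    omega
  open CfsgLib.BNPair in
  have h1 : s' * e * s ∈ cell P.toBNPair (σ P.toBNPair a' * σ P.toBNPair a) :=
    σ_mul_cell_of_le P.toBNPair a' hlen (mem_cell_mul_B P.toBNPair (S_mem_cell P.toBNPair a') he)
      (S_mem_cell P.toBNPair a)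
  open CfsgLib.BNPair in
  have h2 : s' * s ∈ cell P.toBNPair (σ P.toBNPair a' * σ P.toBNPair a) :=
    σ_mul_cell_of_le P.toBNPair a' hlen (S_mem_cell P.toBNPair a') (S_mem_cell P.toBNPair a)
  rw [CfsgLib.BNPair.cell_eq_of_mem P.toBNPair h2, DoubleCoset.mem_doubleCoset] at h1
  obtain ⟨e₁, he₁, e₂, he₂, heq⟩ := h1
  set g := s'⁻¹ * e₁ * s' with hgdef
  have hg' : g = e * s * e₂⁻¹ * s⁻¹ := by
    calc g = s'⁻¹ * (e₁ * (s' * s) * e₂) * e₂⁻¹ * s⁻¹ := by rw [hgdef]; group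
      _ = s'⁻¹ * (s' * e * s) * e₂⁻¹ * s⁻¹ := by rw [heq]
      _ = e * s * e₂⁻¹ * s⁻¹ := by group
  have hgB : g ∈ P.B := by
    have ha : g ∈ P.parabolic {s'} := by
      have hS := CfsgLib.BNPair.subset_parabolic P.toBNPair {s'} (Set.mem_singleton s')
      exact mul_mem (mul_mem (inv_mem hS) (CfsgLib.BNPair.B_le_parabolic P.toBNPair _ he₁)) hS
    have hb : g ∈ P.parabolic {s} := by
      have hS := CfsgLib.BNPair.subset_parabolic P.toBNPair {s} (Set.mem_singleton s)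
      rw [hg']
      exact mul_mem (mul_mem (mul_mem (CfsgLib.BNPair.B_le_parabolic P.toBNPair _ he) hS)
        (inv_mem (CfsgLib.BNPair.B_le_parabolic P.toBNPair _ he₂))) (inv_mem hS)
    have := Subgroup.mem_inf.2 ⟨ha, hb⟩
    rwa [CfsgLib.BNPair.parabolic_inf P.toBNPair (Set.singleton_subset_iff.2 hs')
      (Set.singleton_subset_iff.2 hs), Set.singleton_inter_eq_empty.2 (by simpa using hne),
      Cfsg.BNPair.parabolic, Subgroup.closure_empty, sup_bot_eq] at this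
  refine ⟨g, hgB, ?_, ?_⟩
  · rw [show s'⁻¹ * g * s' = (s' * s')⁻¹ * e₁ * (s' * s') by rw [hgdef]; group]
    exact mul_mem (mul_mem (inv_mem (P.sq_mem s' hs')) he₁) (P.sq_mem s' hs')
  · rw [show s⁻¹ * e⁻¹ * g * s = e₂⁻¹ by rw [hg']; group]
    exact inv_mem he₂

theorem fix_S_coset (hα : ¬ p ∣ orderOf α) (hfix : ∀ u ∈ P.US, α u = u) {s : Q} (hs : s ∈ P.S) :
    s⁻¹ * α s ∈ P.B := by
  have hB : ∀ b ∈ P.B, α b = b := fun b hb => P.fix_B α hα hfix hb
  set M : Subgroup Q := (P.parabolic {s}).map α.toMonoidHom with hMdef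
  have hBM : P.B ≤ M := fun b hb =>
    ⟨b, CfsgLib.BNPair.B_le_parabolic P.toBNPair _ hb, hB b hb⟩
  have hMpar := CfsgLib.BNPair.eq_parabolic P.toBNPair M hBM
  have hsM : α s ∈ M :=
    ⟨s, CfsgLib.BNPair.subset_parabolic P.toBNPair {s} (Set.mem_singleton s), rfl⟩
  obtain ⟨s', hs'S, hs'M⟩ : ∃ s', s' ∈ P.S ∧ s' ∈ M := by
    by_contra hc
    push Not at hc
    rw [Set.eq_empty_of_forall_notMem (s := P.S ∩ (M : Set Q)) (fun x hx => hc x hx.1 hx.2),
      Cfsg.BNPair.parabolic, Subgroup.closure_empty, sup_bot_eq] at hMpar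
    rw [hMpar] at hsM
    have e : α s = s := α.injective (hB _ hsM)
    have : s ∈ P.B := e ▸ hsM
    exact CfsgLib.BNPair.S_not_mem_B P.toBNPair ⟨s, hs⟩ this
  have hle : P.parabolic {s'} ≤ M := sup_le hBM ((Subgroup.closure_le _).2 (by simpa using hs'M))
  set L : Subgroup Q := (P.parabolic {s'}).comap α.toMonoidHom with hLdef
  have hBL : P.B ≤ L := fun b hb => by
    show α b ∈ P.parabolic {s'}
    rw [hB b hb]; exact CfsgLib.BNPair.B_le_parabolic P.toBNPair _ hb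
  have hLs : L ≤ P.parabolic {s} := fun x hx => by
    obtain ⟨y, hy, e⟩ := hle hx
    rwa [← α.injective e]
  have hsL : s ∈ L := by
    by_contra hc
    have hL := CfsgLib.BNPair.eq_parabolic P.toBNPair L hBL
    rw [Set.eq_empty_of_forall_notMem (s := P.S ∩ (L : Set Q)) (fun x hx => hc (by
      have := CfsgLib.BNPair.mem_of_mem_parabolic P.toBNPair (Set.singleton_subset_iff.2 hs) hx.1
        (hLs hx.2)
      rw [← Set.mem_singleton_iff.1 this]; exact hx.2)),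
      Cfsg.BNPair.parabolic, Subgroup.closure_empty, sup_bot_eq] at hL
    have h1 : α.symm s' ∈ L := by
      rw [hLdef, Subgroup.mem_comap, MulEquiv.coe_toMonoidHom, MulEquiv.apply_symm_apply]
      exact CfsgLib.BNPair.subset_parabolic P.toBNPair {s'} (Set.mem_singleton s')
    rw [hL] at h1
    have h2 := hB _ h1
    rw [MulEquiv.apply_symm_apply] at h2
    rw [← h2] at h1
    exact CfsgLib.BNPair.S_not_mem_B P.toBNPair ⟨s', hs'S⟩ h1
  have hsB : α s ∉ P.B := fun h => by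
    have e : α s = s := α.injective (hB _ h)
    rw [e] at h
    exact CfsgLib.BNPair.S_not_mem_B P.toBNPair ⟨s, hs⟩ h
  have hcell : α s ∈ DoubleCoset.doubleCoset s' (P.B : Set Q) P.B := by
    obtain ⟨w, hw, hcell⟩ := (CfsgLib.BNPair.mem_parabolic_iff P.toBNPair
      (Set.singleton_subset_iff.2 hs'S) (α s)).1 hsL
    have hw' : w = 1 ∨ w = CfsgLib.BNPair.σ P.toBNPair ⟨s', hs'S⟩ := by
      have : w ∈ Subgroup.zpowers (CfsgLib.BNPair.σ P.toBNPair ⟨s', hs'S⟩) := by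
        revert hw
        refine fun hw => (Subgroup.closure_le _).2 ?_ hw
        rintro _ ⟨x, hx, rfl⟩
        have : x = ⟨s', hs'S⟩ := Subtype.ext hx
        rw [this]; exact Subgroup.mem_zpowers _
      obtain ⟨k, rfl⟩ := Subgroup.mem_zpowers_iff.1 this
      rcases Int.even_or_odd k with ⟨i, rfl⟩ | ⟨i, rfl⟩
      · left; rw [← two_mul, zpow_mul, zpow_two, CfsgLib.BNPair.σ_sq, one_zpow]
      · right
        rw [zpow_add, zpow_mul, zpow_two, CfsgLib.BNPair.σ_sq, one_zpow, one_mul, zpow_one]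
    rcases hw' with rfl | rfl
    · exact absurd ((CfsgLib.BNPair.mem_cell_one P.toBNPair).1 hcell) hsB
    · rw [CfsgLib.BNPair.cell_eq_of_mem P.toBNPair
        (CfsgLib.BNPair.S_mem_cell P.toBNPair ⟨s', hs'S⟩)] at hcell
      exact hcell
  obtain ⟨b₁, hb₁, b₂, hb₂, he⟩ := DoubleCoset.mem_doubleCoset.1 hcell
  have hkey : ∀ g ∈ P.B, ((α s)⁻¹ * g * α s ∈ P.B ↔ s⁻¹ * g * s ∈ P.B) := by
    intro g hg
    have e : α (s⁻¹ * g * s) = (α s)⁻¹ * g * α s := by rw [map_mul, map_mul, map_inv, hB g hg]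
    rw [← e]
    exact ⟨fun h => α.injective (hB _ h) ▸ h, fun h => by rw [hB _ h]; exact h⟩
  have hne : s' = s := by
    by_contra hne
    have hrel : ∀ g ∈ P.B, s'⁻¹ * g * s' ∈ P.B → s⁻¹ * (b₁ * g * b₁⁻¹) * s ∈ P.B := by
      intro g hg h
      refine (hkey _ (mul_mem (mul_mem hb₁ hg) (inv_mem hb₁))).1 ?_
      rw [he, show (b₁ * s' * b₂)⁻¹ * (b₁ * g * b₁⁻¹) * (b₁ * s' * b₂) =
        b₂⁻¹ * (s'⁻¹ * g * s') * b₂ by group]
      exact mul_mem (mul_mem (inv_mem hb₂) h) hb₂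
    obtain ⟨x, hx, hxs⟩ := P.exists_move hs
    have hc : b₁⁻¹ ∈ P.B := inv_mem hb₁
    obtain ⟨g₁, hg₁, h1, h1'⟩ := P.panel hs hs'S hne hc
    obtain ⟨g₂, hg₂, h2, h2'⟩ := P.panel hs hs'S hne (mul_mem hc (P.U_le hx))
    have hh := hrel _ (mul_mem hg₂ (inv_mem hg₁)) (by
      rw [show s'⁻¹ * (g₂ * g₁⁻¹) * s' = (s'⁻¹ * g₂ * s') * (s'⁻¹ * g₁ * s')⁻¹ by group]
      exact mul_mem h2 (inv_mem h1))
    apply hxs
    have h3 : s⁻¹ * x * s ∈ P.B := by
      rw [show s⁻¹ * x * s = s⁻¹ * (b₁ * (g₂ * g₁⁻¹) * b₁⁻¹) * s * (s⁻¹ * b₁⁻¹⁻¹ * g₁ * s) *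
        (s⁻¹ * (b₁⁻¹ * x)⁻¹ * g₂ * s)⁻¹ by group]
      exact mul_mem (mul_mem hh h1') (inv_mem h2')
    rw [show s * x * s⁻¹ = (s * s) * (s⁻¹ * x * s) * (s * s)⁻¹ by group]
    exact mul_mem (mul_mem (P.sq_mem s hs) h3) (inv_mem (P.sq_mem s hs))
  subst hne
  obtain ⟨u, hu, t, ht, rfl⟩ := P.exists_ut hb₁
  set b := s'⁻¹ * t * s' * b₂ with hbdef
  have hbB : b ∈ P.B := mul_mem (Subgroup.mem_inf.1 (P.conj_T' (P.subset hs'S) ht)).1 hb₂
  have he' : α s' = u * s' * b := by rw [he, hbdef]; group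
  have hk : ∀ k : ℕ, (α ^ k) s' = u ^ k * s' * b ^ k := by
    intro k
    induction k with
    | zero => simp
    | succ k ih =>
      rw [pow_succ' α, MulAut.mul_apply, ih, map_mul, map_mul, map_pow, map_pow, hfix u hu, he',
        hB b hbB, pow_succ u, pow_succ' b]
      group
  have ho := hk (orderOf α)
  rw [pow_orderOf_eq_one, MulAut.one_apply] at ho
  have h1 : s'⁻¹ * u ^ orderOf α * s' ∈ P.B := by
    rw [show s'⁻¹ * u ^ orderOf α * s' =
      s'⁻¹ * (u ^ orderOf α * s' * b ^ orderOf α) * (b ^ orderOf α)⁻¹ by group, ← ho,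
      inv_mul_cancel, one_mul]
    exact inv_mem (pow_mem hbB _)
  obtain ⟨j, hj⟩ := P.isP hu
  have hcop : Nat.Coprime (orderOf α) (orderOf u) :=
    Nat.Coprime.coprime_dvd_right (orderOf_dvd_of_pow_eq_one hj)
      (Nat.Coprime.pow_right _ (Nat.coprime_comm.1 (hp.out.coprime_iff_not_dvd.2 hα)))
  obtain ⟨m, hm⟩ := exists_pow_eq_self_of_coprime hcop
  have h2 : s'⁻¹ * u * s' ∈ P.B := by
    have := pow_mem h1 m
    rwa [show s'⁻¹ * u ^ orderOf α * s' = s'⁻¹ * u ^ orderOf α * s'⁻¹⁻¹ by rw [inv_inv], conj_pow,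
      hm, inv_inv] at this
  rw [he', show s'⁻¹ * (u * s' * b) = (s'⁻¹ * u * s') * b by group]
  exact mul_mem h2 hbB

theorem fix_S (hα : ¬ p ∣ orderOf α) (hfix : ∀ u ∈ P.US, α u = u) {s : Q} (hs : s ∈ P.S) :
    α s = s := by
  have hB : ∀ b ∈ P.B, α b = b := fun b hb => P.fix_B α hα hfix hb
  set b := s⁻¹ * α s with hbdef
  have hbB : b ∈ P.B := P.fix_S_coset α hα hfix hs
  have hαs : α s = s * b := by rw [hbdef, mul_inv_cancel_left]
  have ho : b ^ orderOf α = 1 := pow_orderOf_apply α hαs (hB b hbB)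
  obtain ⟨x, hx, hxs⟩ := P.exists_move hs
  obtain ⟨b₁, hb₁, b₂, hb₂, e⟩ := P.sandwich hs (P.U_le hx) hxs
  have e2 : s * b * x * (s * b) = b₁ * (s * b) * b₂ := by
    have := congrArg α e
    simpa only [map_mul, hαs, hB x (P.U_le hx), hB b₁ hb₁, hB b₂ hb₂] using this
  obtain ⟨u, hu, t, ht, rfl⟩ := P.exists_tu hb₂
  have htb : b * t = t * b := by
    have h1 := P.conj_mem s (P.subset hs) t ht
    have h2 : α (s * t * s⁻¹) = s * t * s⁻¹ := hB _ h1
    rw [map_mul, map_mul, map_inv, hαs, hB t (Subgroup.mem_inf.1 ht).1] at h2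
    calc b * t = s⁻¹ * (s * b * t * (s * b)⁻¹) * s * b := by group
      _ = s⁻¹ * (s * t * s⁻¹) * s * b := by rw [h2]
      _ = t * b := by group
  have hc : s⁻¹ * (x⁻¹ * b * x) * s ∈ P.US := by
    have e3 : s⁻¹ * (x⁻¹ * b * x) * s = u⁻¹ * (b * u * b⁻¹) := by
      calc s⁻¹ * (x⁻¹ * b * x) * s = (s * x * s)⁻¹ * (s * b * x * (s * b)) * b⁻¹ := by group
        _ = (b₁ * s * (t * u))⁻¹ * (b₁ * (s * b) * (t * u)) * b⁻¹ := by rw [e, e2]
        _ = u⁻¹ * (t⁻¹ * (b * t)) * u * b⁻¹ := by group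
        _ = u⁻¹ * (t⁻¹ * (t * b)) * u * b⁻¹ := by rw [htb]
        _ = u⁻¹ * (b * u * b⁻¹) := by group
    rw [e3]
    exact mul_mem (inv_mem hu) (P.conj_U b hbB u hu)
  obtain ⟨j, hj⟩ := P.isP hc
  have hb1 : b = 1 := by
    refine eq_one_of_pow ⟨j, ?_⟩ hα ho
    rw [show s⁻¹ * (x⁻¹ * b * x) * s = (s⁻¹ * x⁻¹) * b * (s⁻¹ * x⁻¹)⁻¹ by group, conj_pow,
      mul_inv_eq_one, mul_eq_left] at hj
    exact hj
  rw [hαs, hb1, mul_one]

theorem eq_one (hα : ¬ p ∣ orderOf α) (hfix : ∀ u ∈ P.US, α u = u) : α = 1 := by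
  let C : Subgroup Q :=
    { carrier := {g | α g = g}
      one_mem' := map_one α
      mul_mem' := fun {a b} ha hb => by
        show α (a * b) = a * b
        rw [map_mul, show α a = a from ha, show α b = b from hb]
      inv_mem' := fun {a} ha => by
        show α a⁻¹ = a⁻¹
        rw [map_inv, show α a = a from ha] }
  have hC : P.parabolic P.S ≤ C :=
    sup_le (fun b hb => P.fix_B α hα hfix hb) ((Subgroup.closure_le _).2 fun s hs =>
      P.fix_S α hα hfix hs)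
  rw [CfsgLib.BNPair.parabolic_S] at hC
  exact MulEquiv.ext fun g => hC (Subgroup.mem_top g)

end Split

end CfsgLib.SylowRigid
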