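import Cfsg.Agent.SylowRigid.Rigid
import Cfsg.Agent.Chev.Inst
import Cfsg.Agent.Chev.BN
import Cfsg.Agent.Chev.Twisted.E6
import Cfsg.Agent.Chev.Twisted.D4
import Cfsg.Agent.Chev.Ree4.Data
import Cfsg.Agent.Chev.Ree4.Results
import Cfsg.Agent.Chev.Ree.Results

/-!
The exceptional and twisted groups.
-/

set_option autoImplicit false

namespace CfsgLib.SylowRigid

open Cfsg.Lie CfsgLib.Chev

universe u

variable {D : ChevalleyDatum} (S : Sys.{u} D) {F : Type u} [Field F] [Finite F] {p : ℕ}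
  [hp : Fact p.Prime] [CharP F p]

include S

theorem not_dvd_orderOf_diag {h : GL D.Idx F} (hh : h ∈ D.diagonalSubgroup F) : ¬ p ∣ orderOf h := by
  haveI : Fintype F := Fintype.ofFinite F
  obtain ⟨z, rfl⟩ := S.exists_dg hh
  intro hdvd
  have h1 : S.dg z ^ (Nat.card F - 1) = 1 := by
    rw [← S.dgHom_apply, ← map_pow, show z ^ (Nat.card F - 1) = 1 from funext fun i => by
      rw [Pi.pow_apply, Pi.one_apply, ← Nat.card_units]; exact pow_card_eq_one', map_one]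
  have h2 := hdvd.trans (orderOf_dvd_of_pow_eq_one h1)
  obtain ⟨k, -, hk⟩ := FiniteField.card F p
  rw [Nat.card_eq_fintype_card, hk] at h2
  have h3 := Nat.dvd_sub (dvd_pow_self p k.pos.ne') h2
  rw [Nat.sub_sub_self (Nat.one_le_pow _ _ hp.out.pos)] at h3
  exact hp.out.one_lt.ne' (Nat.dvd_one.1 h3)

theorem isPGroup_pos : IsPGroup p (D.posUnipotent F) := by
  haveI : Fintype F := Fintype.ofFinite F
  obtain ⟨k, -, hk⟩ := FiniteField.card F p
  refine IsPGroup.of_card (n := (k : ℕ) * (D.nroots / 2)) ?_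
  rw [S.card_pos, Nat.card_eq_fintype_card, hk, pow_mul]

/-- A subgroup of the group of matrices whose `B` and `N` are those of the Chevalley group. -/
theorem rigid_sub (A : Subgroup (GL D.Idx F)) [IsSimpleGroup A] (P : Cfsg.BNPair A)
    (hB : P.B = (D.borelSubgroup F ⊓ A).subgroupOf A)
    (hN : P.N = (D.monomialSubgroup F ⊓ A).subgroupOf A) (hS : P.S.Nonempty)
    (hsplit : ∀ b ∈ D.borelSubgroup F ⊓ A, ∃ u ∈ D.posUnipotent F, u ∈ A ∧
      ∃ h ∈ D.diagonalSubgroup F, h ∈ A ∧ b = u * h) : Rigid p A := by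
  haveI := Sys.finite_GL (D := D) (F := F)
  refine (exists_split (p := p) P ((D.posUnipotent F).subgroupOf A) ?_ ?_ ?_ ?_ ?_ hS).elim Split.rigid
  · intro x hx
    rw [hB, Subgroup.mem_subgroupOf]
    exact Subgroup.mem_inf.2 ⟨Subgroup.mem_sup_left (Subgroup.mem_subgroupOf.1 hx), x.2⟩
  · intro b hb u hu
    rw [hB, Subgroup.mem_subgroupOf] at hb
    rw [Subgroup.mem_subgroupOf] at hu ⊢
    push_cast
    obtain ⟨v, hv, h, hh, e⟩ := S.mem_borel_iff.1 (Subgroup.mem_inf.1 hb).1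
    rw [e, show v * h * (u : GL D.Idx F) * (v * h)⁻¹ = v * (h * u * h⁻¹) * v⁻¹ by group]
    exact mul_mem (mul_mem hv (S.diag_conj_pos hh hu)) (inv_mem hv)
  · intro b hb
    rw [hB, Subgroup.mem_subgroupOf] at hb
    obtain ⟨u, hu, huA, h, hh, hhA, e⟩ := hsplit _ hb
    rw [show b = ⟨u, huA⟩ * ⟨h, hhA⟩ from Subtype.ext e]
    refine mul_mem (Subgroup.mem_sup_left (Subgroup.mem_subgroupOf.2 hu)) (Subgroup.mem_sup_right ?_)
    rw [hB, hN]
    exact Subgroup.mem_inf.2 ⟨Subgroup.mem_subgroupOf.2 (Subgroup.mem_inf.2 ⟨Subgroup.mem_sup_right hh, hhA⟩),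
      Subgroup.mem_subgroupOf.2 (Subgroup.mem_inf.2 ⟨S.diag_le_mono hh, hhA⟩)⟩
  · exact (isPGroup_pos S).comap_of_injective A.subtype A.subtype_injective
  · intro t ht
    rw [hB, hN] at ht
    obtain ⟨h1, h2⟩ := Subgroup.mem_inf.1 ht
    rw [Subgroup.mem_subgroupOf, Subgroup.mem_inf] at h1 h2
    rw [← Subgroup.orderOf_coe]
    exact not_dvd_orderOf_diag S (by
      rw [← S.borel_inf_mono]; exact Subgroup.mem_inf.2 ⟨h1.1, h2.1⟩)

/-- the split groups -/
theorem rigid_chev (hr : 0 < D.rank) [IsSimpleGroup (D.group F)] : Rigid p (D.group F) := by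
  refine rigid_sub S _ (S.bnPair F) ?_ ?_ ⟨S.nG F 0, 0, hr, S.coe_nU _ _⟩ fun b hb => ?_
  · exact congrArg (fun X => Subgroup.subgroupOf X (D.group F)) (inf_eq_left.2 S.borel_le_group).symm
  · exact congrArg (fun X => Subgroup.subgroupOf X (D.group F)) (inf_eq_left.2 S.mono_le_group).symm
  obtain ⟨u, hu, h, hh, e⟩ := S.mem_borel_iff.1 (Subgroup.mem_inf.1 hb).1
  exact ⟨u, hu, S.pos_le_group hu, h, hh, S.diag_le_group hh, e⟩

omit S in
/-- the twisted groups -/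
theorem rigid_gdata {S : Sys.{u} D} {m : ℕ} (hm : 0 < m) {T : Twisted.WData S m} (A : Twisted.GData T F)
    [IsSimpleGroup A.G1] : Rigid p A.G1 := by
  refine rigid_sub S _ A.bnPair rfl rfl ⟨A.nG ⟨0, hm⟩, ⟨0, hm⟩, rfl⟩ fun b hb => ?_
  rw [A.borel_inf_G1, A.mem_B1] at hb
  obtain ⟨u, hu, h, hh, e⟩ := hb
  exact ⟨u, (Subgroup.mem_inf.1 hu).1, A.U1_le hu, h, A.H1_diag hh, A.H1_le hh, e⟩

end CfsgLib.SylowRigid
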