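import Cfsg.Agent.SylowRigid.Basic

/-!
The conclusion for every Sylow subgroup, and a constructor from a split BN-pair.
-/

set_option autoImplicit false

namespace CfsgLib.SylowRigid

universe u v

/-- Only the identity of order prime to `p` fixes a Sylow `p`-subgroup. -/
def Rigid (p : ℕ) (Q : Type u) [Group Q] : Prop :=
  ∀ α : MulAut Q, ¬ p ∣ orderOf α → ∀ U : Sylow p Q, (∀ x ∈ (U : Subgroup Q), α x = x) → α = 1

/-- conjugation of automorphisms along an isomorphism -/
theorem Rigid.of_equiv {p : ℕ} [Fact p.Prime] {G : Type u} [Group G] {Q : Type v} [Group Q] [Finite G] (e : G ≃* Q)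
    (h : Rigid p Q) : Rigid p G := by
  intro α hα U hU
  haveI : Finite Q := Finite.of_equiv G e.toEquiv
  let c : MulAut G ≃* MulAut Q :=
    { toFun := fun a => (e.symm.trans a).trans e
      invFun := fun a => (e.trans a).trans e.symm
      left_inv := fun a => MulEquiv.ext fun x => by simp
      right_inv := fun a => MulEquiv.ext fun x => by simp
      map_mul' := fun a b => MulEquiv.ext fun x => by simp }
  have h1 : c α = 1 := by
    refine h (c α) (by rwa [MulEquiv.orderOf_eq]) (U.mapSurjective (f := e.toMonoidHom) e.surjective) ?_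
    rintro _ ⟨x, hx, rfl⟩
    show e (α (e.symm (e x))) = e x
    rw [MulEquiv.symm_apply_apply, hU x hx]
  exact c.injective (h1.trans (map_one c).symm)

variable {Q : Type u} [Group Q] [Finite Q] {p : ℕ} [hp : Fact p.Prime]

theorem Split.rigid [IsSimpleGroup Q] (P : Split p Q) : Rigid p Q := by
  intro α hα U hU
  obtain ⟨g, hg⟩ := MulAction.exists_smul_eq Q P.U U
  set β : MulAut Q := (MulAut.conj g)⁻¹ * α * MulAut.conj g with hβ
  have hord : orderOf β = orderOf α := by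
    rw [hβ, show (MulAut.conj g)⁻¹ * α * MulAut.conj g = MulAut.conj ((MulAut.conj g)⁻¹) α by
      rw [MulAut.conj_apply, inv_inv]]
    exact MulEquiv.orderOf_eq _ _
  have h1 : β = 1 := by
    refine P.eq_one β (by rwa [hord]) fun u hu => ?_
    have hgu : g * u * g⁻¹ ∈ (U : Subgroup Q) := by
      rw [← hg, Sylow.coe_subgroup_smul]
      exact ⟨u, hu, rfl⟩
    show (MulAut.conj g)⁻¹ (α (g * u * g⁻¹)) = u
    rw [hU _ hgu]
    simp [mul_assoc]
  have h2 : α = MulAut.conj g * β * (MulAut.conj g)⁻¹ := by rw [hβ]; group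
  rw [h2, h1, mul_one, mul_inv_cancel]

/-- a split BN-pair with `U` a `p`-group and a torus of order prime to `p` -/
theorem exists_split (P : Cfsg.BNPair Q) (U : Subgroup Q) (hUB : U ≤ P.B)
    (hconj : ∀ b ∈ P.B, ∀ u ∈ U, b * u * b⁻¹ ∈ U) (hB : P.B ≤ U ⊔ (P.B ⊓ P.N))
    (hU : IsPGroup p U) (hT : ∀ t ∈ P.B ⊓ P.N, ¬ p ∣ orderOf t) (hS : P.S.Nonempty) :
    Nonempty (Split p Q) := by
  have hTU : P.B ⊓ P.N ≤ Subgroup.normalizer (U : Set Q) := fun t ht =>
    Subgroup.mem_normalizer_iff.2 fun u => ⟨fun hu => hconj t (Subgroup.mem_inf.1 ht).1 u hu,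
      fun hu => by
        have := hconj t⁻¹ (inv_mem (Subgroup.mem_inf.1 ht).1) _ hu
        simpa [mul_assoc] using this⟩
  have hdec : ∀ b ∈ P.B, ∃ u ∈ U, ∃ t ∈ P.B ⊓ P.N, b = u * t := fun b hb => by
    have h : b ∈ ((U ⊔ (P.B ⊓ P.N) : Subgroup Q) : Set Q) := hB hb
    rw [Subgroup.coe_mul_of_right_le_normalizer_left _ _ hTU, Set.mem_mul] at h
    obtain ⟨u, hu, t, ht, rfl⟩ := h
    exact ⟨u, hu, t, ht, rfl⟩
  have hpB : ∀ g ∈ P.B, (∃ j : ℕ, g ^ p ^ j = 1) → g ∈ U := by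
    rintro g hg ⟨j, hj⟩
    obtain ⟨u, hu, t, ht, rfl⟩ := hdec g hg
    have hkey : ∀ k : ℕ, (u * t) ^ k * (t ^ k)⁻¹ ∈ U := by
      intro k
      induction k with
      | zero => simp
      | succ k ih =>
        rw [pow_succ' (u * t), pow_succ' t, show u * t * (u * t) ^ k * (t * t ^ k)⁻¹ =
          u * (t * ((u * t) ^ k * (t ^ k)⁻¹) * t⁻¹) by group]
        exact mul_mem hu (hconj t (Subgroup.mem_inf.1 ht).1 _ ih)
    have h1 := hkey (orderOf t)
    rw [pow_orderOf_eq_one, inv_one, mul_one] at h1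
    have hcop : Nat.Coprime (orderOf t) (orderOf (u * t)) :=
      Nat.Coprime.coprime_dvd_right (orderOf_dvd_of_pow_eq_one hj)
        (Nat.Coprime.pow_right _ (Nat.coprime_comm.1 (hp.out.coprime_iff_not_dvd.2 (hT t ht))))
    obtain ⟨m, hm⟩ := exists_pow_eq_self_of_coprime hcop
    rw [← hm]
    exact pow_mem h1 m
  have hNB : Subgroup.normalizer (U : Set Q) ≤ P.B := by
    set M := Subgroup.normalizer (U : Set Q) with hMdef
    have hBM : P.B ≤ M := fun g hg => by
      obtain ⟨u, hu, t, ht, rfl⟩ := hdec g hg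
      exact mul_mem (Subgroup.le_normalizer hu) (hTU ht)
    have hS' : P.S ∩ (M : Set Q) = ∅ := by
      refine Set.eq_empty_of_forall_notMem ?_
      rintro s ⟨hs, hsM⟩
      have hconjB : ∀ b ∈ P.B, s * b * s⁻¹ ∈ P.B := fun b hb => by
        obtain ⟨u, hu, t, ht, rfl⟩ := hdec b hb
        rw [show s * (u * t) * s⁻¹ = (s * u * s⁻¹) * (s * t * s⁻¹) by group]
        exact mul_mem (hUB ((Subgroup.mem_normalizer_iff.1 hsM u).1 hu))
          (P.conj_mem s (P.subset hs) t ht)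
      refine P.conj_ne s hs (Set.ext fun c => ⟨?_, fun hc => ⟨s⁻¹ * c * s⁻¹, ?_, by group⟩⟩)
      · rintro ⟨b, hb, rfl⟩
        show s * b * s ∈ P.B
        rw [show s * b * s = s * b * s⁻¹ * (s * s) by group]
        exact mul_mem (hconjB b hb) (P.sq_mem s hs)
      · rw [show s⁻¹ * c * s⁻¹ = (s * s)⁻¹ * (s * c * s⁻¹) by group]
        exact mul_mem (inv_mem (P.sq_mem s hs)) (hconjB c hc)
    rw [CfsgLib.BNPair.eq_parabolic P M hBM, hS', Cfsg.BNPair.parabolic, Subgroup.closure_empty,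
      sup_bot_eq]
  obtain ⟨U', hU'⟩ := hU.exists_le_sylow
  have hUU : (U' : Subgroup Q) = U := by
    refine le_antisymm (fun g hg => ?_) hU'
    by_contra hgU
    haveI : Group.IsNilpotent (U' : Subgroup Q) := U'.isPGroup'.isNilpotent
    have hlt : U.subgroupOf U' < ⊤ := lt_top_iff_ne_top.2 fun h => hgU
      (Subgroup.subgroupOf_eq_top.1 h hg)
    obtain ⟨⟨w, hwP⟩, hwN, hwU⟩ :=
      SetLike.exists_of_lt (normalizerCondition_of_isNilpotent (U.subgroupOf U') hlt)
    rw [Subgroup.mem_subgroupOf] at hwU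
    refine hwU (hpB w (hNB (Subgroup.mem_normalizer_iff.2 fun u => ⟨fun hu => ?_, fun hu => ?_⟩)) ?_)
    · have := (Subgroup.mem_normalizer_iff.1 hwN ⟨u, hU' hu⟩).1
        (by rw [Subgroup.mem_subgroupOf]; exact hu)
      simpa [Subgroup.mem_subgroupOf] using this
    · have hu' : u ∈ (U' : Subgroup Q) := by
        have := mul_mem (mul_mem (inv_mem hwP) (hU' hu)) hwP
        simpa [mul_assoc] using this
      have := (Subgroup.mem_normalizer_iff.1 hwN ⟨u, hu'⟩).2
        (by rw [Subgroup.mem_subgroupOf]; simpa using hu)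
      simpa [Subgroup.mem_subgroupOf] using this
    · obtain ⟨j, hj⟩ := U'.isPGroup' ⟨w, hwP⟩
      exact ⟨j, by simpa using congrArg Subtype.val hj⟩
  refine ⟨⟨P, U', hUU ▸ hUB, ?_, ?_, ?_, hS⟩⟩
  · rw [hUU]; exact hconj
  · rw [hUU]; exact hB
  · rw [Subgroup.eq_bot_iff_forall]
    intro x hx
    obtain ⟨hxU, hxT⟩ := Subgroup.mem_inf.1 hx
    rw [hUU] at hxU
    obtain ⟨j, hj⟩ := hU ⟨x, hxU⟩
    exact eq_one_of_pow ⟨j, by simpa using congrArg Subtype.val hj⟩ (hT x hxT) (pow_orderOf_eq_one x)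

end CfsgLib.SylowRigid
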